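import Mathlib
import Cfsg.Prelude.Def_Blocks
import Cfsg.Agent.Lib.Helper76.PRegNorm
import Cfsg.Agent.Lib.Helper77.Degree
import Cfsg.Agent.Lib.Helper77.CharBasic
import Cfsg.Agent.Lib.Helper77.BlockIdem
import Cfsg.Agent.Lib.Helper79.ClassMult
import Cfsg.Agent.Lib.Helper16.ClassSum
import Cfsg.Agent.Lib.Helper16.BlockBasic
import Cfsg.Agent.Lib.Helper78.BlockOrth
import Cfsg.Agent.Lib.Helper75.CharInd
import Cfsg.Agent.Lib.Helper81.CharCore
import Cfsg.Agent.Lib.Helper26.VChar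
import Cfsg.Agent.Lib.Helper3.CharValues

/-!
# The sum of the squares of the degrees in a block

For a `p`-block `B` of defect `d`, the exact power of `p` dividing `∑_{χ ∈ B} χ(1)²` is
`p ^ (2a - d)`, `p ^ a` the `p`-part of the group order (Brauer).

The proof: with `P` a Sylow `p`-subgroup and `c χ = [χ_P, 1_P]`, the vanishing of
`∑_{χ ∈ B} χ(1) χ` on `p`-singular elements gives `∑ χ(1)² = p ^ a ∑ χ(1) c χ`; expanding the
`p`-regular truncation of a height zero character `χ₀` in `B`, averaging over `P`, and using the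
congruences of central characters shows that `∑ (χ(1) / p ^ (a-d)) c χ` is prime to `p`.
-/

set_option autoImplicit false
set_option linter.unusedSectionVars false

namespace Cfsg.Agent.Lib.Helper79

open Cfsg Cfsg.Agent.Lib.Helper16
open scoped ComplexConjugate

section

variable {G : Type*} [Group G] [Fintype G] {M : Ideal Cfsg.AlgInt} {p : ℕ} [Fact p.Prime]

/-- the sum of an irreducible character over a Sylow `p`-subgroup is `p ^ a` times an integer -/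
theorem exists_sum_sylow_eq (P : Sylow p G) [Fintype (P : Subgroup G)] (ψ : Cfsg.IrrCharacter G) :
    ∃ k : ℤ, ∑ u : (P : Subgroup G), (ψ : G → ℂ) u =
      ((p ^ (Nat.card G).factorization p : ℕ) : ℂ) * (k : ℂ) := by
  classical
  have hp : p.Prime := Fact.out
  have : Finite (Cfsg.IrrCharacter (P : Subgroup G)) := Cfsg.Agent.Lib.Helper77.irr_finite _
  have : Fintype (Cfsg.IrrCharacter (P : Subgroup G)) := Fintype.ofFinite _
  have hPcard : Nat.card (P : Subgroup G) = p ^ (Nat.card G).factorization p :=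
    P.card_eq_multiplicity
  have hres : Cfsg.IsGeneralizedCharacter (P : Subgroup G)
      (fun u : (P : Subgroup G) => (ψ : G → ℂ) u) :=
    Cfsg.Agent.Lib.Helper26.isGen_of_isCharacter (Cfsg.Agent.Lib.Helper75.isCharacter_res _
      (Cfsg.Agent.Lib.Helper3.isCharacter_of_irr ψ.2))
  have hone : Cfsg.IsGeneralizedCharacter (P : Subgroup G)
      (fun _ : (P : Subgroup G) => (1 : ℂ)) :=
    Cfsg.Agent.Lib.Helper26.isGen_of_irr Cfsg.Agent.Lib.Helper81.isIrrCharacter_one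
  obtain ⟨k, hk⟩ := Cfsg.Agent.Lib.Helper26.classInner_gen_int hres hone
  refine ⟨k, ?_⟩
  unfold Cfsg.classInner at hk
  rw [hPcard] at hk
  have h1 : ∑ u : (P : Subgroup G), (ψ : G → ℂ) u * (starRingEnd ℂ) (1 : ℂ) =
      ∑ u : (P : Subgroup G), (ψ : G → ℂ) u := by
    refine Finset.sum_congr rfl (fun u _ => ?_)
    rw [map_one, mul_one]
  rw [h1] at hk
  have hpA : ((p ^ (Nat.card G).factorization p : ℕ) : ℂ) ≠ 0 := by
    exact_mod_cast (pow_pos hp.pos _).ne'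
  rw [← hk, ← mul_assoc, mul_inv_cancel₀ hpA, one_mul]

/-- the weighted sums over the `p`-regular elements -/
noncomputable def regSum (p : ℕ) (χ₀ ψ : G → ℂ) : ℂ :=
  ∑ x : G, if p ∣ orderOf x then 0 else χ₀ x⁻¹ * ψ x / ψ 1

theorem regSum_class_aux (χ₀ ψ : Cfsg.IrrCharacter G) (x h : G) :
    (if p ∣ orderOf (x * h * x⁻¹) then (0 : ℂ) else
      (χ₀ : G → ℂ) (x * h * x⁻¹)⁻¹ * (ψ : G → ℂ) (x * h * x⁻¹) / (ψ : G → ℂ) 1) =
    if p ∣ orderOf h then (0 : ℂ) else (χ₀ : G → ℂ) h⁻¹ * (ψ : G → ℂ) h / (ψ : G → ℂ) 1 := by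
  have h1 : orderOf (x * h * x⁻¹) = orderOf h := (MulAut.conj x).orderOf_eq h
  have h2 : (x * h * x⁻¹)⁻¹ = x * h⁻¹ * x⁻¹ := by group
  rw [h1, h2, irr_conj_eq χ₀.2 h⁻¹ x, irr_conj_eq ψ.2 h x]

theorem memLocalRing_regSum (hMp : M.IsPrime) (χ₀ ψ : Cfsg.IrrCharacter G) :
    Cfsg.MemLocalRing M (regSum p (χ₀ : G → ℂ) (ψ : G → ℂ)) := by
  classical
  unfold regSum
  apply sum_class_invariant_mem (Cfsg.MemLocalRing M) (memLocalRing_zero hMp)
    (fun a b => memLocalRing_add hMp)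
    (fun x => if p ∣ orderOf x then (0 : ℂ) else
      (χ₀ : G → ℂ) x⁻¹ * (ψ : G → ℂ) x / (ψ : G → ℂ) 1) ?_ ?_
    Finset.univ (fun _ _ _ => Finset.mem_univ _)
  · intro x h
    exact regSum_class_aux χ₀ ψ x h
  · intro h
    by_cases hh : p ∣ orderOf h
    · rw [if_pos hh, mul_zero]
      exact memLocalRing_zero hMp
    · rw [if_neg hh]
      have e : ((Subgroup.centralizer ({h} : Set G)).index : ℂ) *
          ((χ₀ : G → ℂ) h⁻¹ * (ψ : G → ℂ) h / (ψ : G → ℂ) 1) =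
          (χ₀ : G → ℂ) h⁻¹ * Cfsg.centralChar (ψ : G → ℂ) h := by
        unfold Cfsg.centralChar
        ring
      rw [e]
      exact memLocalRing_mul hMp (Cfsg.Agent.Lib.Helper77.memLocalRing_irr_apply hMp χ₀ _)
        (Cfsg.Agent.Lib.Helper77.memLocalRing_centralChar hMp ψ h)

theorem memLocalIdeal_regSum_sub (hMp : M.IsPrime) (χ₀ ψ ψ' : Cfsg.IrrCharacter G)
    (hs : Cfsg.SameBlock M (ψ : G → ℂ) (ψ' : G → ℂ)) :
    Cfsg.MemLocalIdeal M (regSum p (χ₀ : G → ℂ) (ψ : G → ℂ) -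
      regSum p (χ₀ : G → ℂ) (ψ' : G → ℂ)) := by
  classical
  unfold regSum
  rw [← Finset.sum_sub_distrib]
  apply sum_class_invariant_mem (Cfsg.MemLocalIdeal M) (memLocalIdeal_zero hMp)
    (fun a b => memLocalIdeal_add hMp)
    (fun x => (if p ∣ orderOf x then (0 : ℂ) else
      (χ₀ : G → ℂ) x⁻¹ * (ψ : G → ℂ) x / (ψ : G → ℂ) 1) -
      (if p ∣ orderOf x then (0 : ℂ) else
      (χ₀ : G → ℂ) x⁻¹ * (ψ' : G → ℂ) x / (ψ' : G → ℂ) 1)) ?_ ?_
    Finset.univ (fun _ _ _ => Finset.mem_univ _)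
  · intro x h
    show (if p ∣ orderOf (x * h * x⁻¹) then (0 : ℂ) else
      (χ₀ : G → ℂ) (x * h * x⁻¹)⁻¹ * (ψ : G → ℂ) (x * h * x⁻¹) / (ψ : G → ℂ) 1) -
      (if p ∣ orderOf (x * h * x⁻¹) then (0 : ℂ) else
      (χ₀ : G → ℂ) (x * h * x⁻¹)⁻¹ * (ψ' : G → ℂ) (x * h * x⁻¹) / (ψ' : G → ℂ) 1) = _
    rw [regSum_class_aux χ₀ ψ x h, regSum_class_aux χ₀ ψ' x h]
  · intro h
    by_cases hh : p ∣ orderOf h
    · rw [if_pos hh, if_pos hh, sub_zero, mul_zero]
      exact memLocalIdeal_zero hMp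
    · rw [if_neg hh, if_neg hh]
      have e : ((Subgroup.centralizer ({h} : Set G)).index : ℂ) *
          ((χ₀ : G → ℂ) h⁻¹ * (ψ : G → ℂ) h / (ψ : G → ℂ) 1 -
            (χ₀ : G → ℂ) h⁻¹ * (ψ' : G → ℂ) h / (ψ' : G → ℂ) 1) =
          (χ₀ : G → ℂ) h⁻¹ * (Cfsg.centralChar (ψ : G → ℂ) h -
            Cfsg.centralChar (ψ' : G → ℂ) h) := by
        unfold Cfsg.centralChar
        ring
      rw [e]
      exact memLocalIdeal_mul_left hMp (Cfsg.Agent.Lib.Helper77.memLocalRing_irr_apply hMp χ₀ _)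
        (hs h)

/-- the coefficients of the `p`-regular truncation in terms of `regSum` -/
theorem classInner_trunc_eq (χ₀ ψ : Cfsg.IrrCharacter G) (A n' : ℕ)
    (hn : Nat.card G = p ^ A * n') :
    (n' : ℂ) * Cfsg.classInner (fun x : G => if p ∣ orderOf x then (0 : ℂ) else
        ((p ^ A : ℕ) : ℂ) * (χ₀ : G → ℂ) x) (ψ : G → ℂ) =
      (ψ : G → ℂ) 1 * regSum p (χ₀ : G → ℂ) (ψ : G → ℂ) := by
  classical
  have hp : p.Prime := Fact.out
  have hG0 : (Nat.card G : ℂ) ≠ 0 := by exact_mod_cast Nat.card_pos.ne'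
  have hψ1 : (ψ : G → ℂ) 1 ≠ 0 := irr_one_ne_zero ψ.2
  unfold Cfsg.classInner regSum
  rw [Finset.mul_sum, Finset.mul_sum, Finset.mul_sum]
  rw [← Equiv.sum_comp (Equiv.inv G)]
  refine Finset.sum_congr rfl (fun x _ => ?_)
  simp only [Equiv.inv_apply, orderOf_inv]
  by_cases hx : p ∣ orderOf x
  · rw [if_pos hx, if_pos hx]
    ring
  · rw [if_neg hx, if_neg hx, ← Cfsg.Agent.Lib.Helper3.isCharacter_inv
      (Cfsg.Agent.Lib.Helper3.isCharacter_of_irr ψ.2), inv_inv]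
    have hn' : (Nat.card G : ℂ) = ((p ^ A : ℕ) : ℂ) * (n' : ℂ) := by
      rw [hn]; push_cast; ring
    have hn0 : (n' : ℂ) ≠ 0 := by
      intro h0
      rw [hn', h0, mul_zero] at hG0
      exact hG0 rfl
    have hpA : ((p ^ A : ℕ) : ℂ) ≠ 0 := by exact_mod_cast (pow_pos hp.pos _).ne'
    rw [hn']
    field_simp

/-- **Brauer.** The exact power of `p` dividing the sum of the squares of the degrees of the
characters of a block of defect `d` is `p ^ (2a - d)`. -/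
theorem sq_sum_factorization (hM : Cfsg.IsPModular p M) (B : Set (Cfsg.IrrCharacter G))
    (hB : Cfsg.IsPBlock M B) :
    (∑ᶠ χ ∈ B, Cfsg.charDegree (χ : G → ℂ) ^ 2).factorization p =
      2 * (Nat.card G).factorization p - Cfsg.blockDefect p B := by
  classical
  have hMp := isPrime_of_isPModular hM
  have hp : p.Prime := Fact.out
  have := Cfsg.Agent.Lib.Helper77.irr_finite G
  have := Fintype.ofFinite (Cfsg.IrrCharacter G)
  obtain ⟨P⟩ : Nonempty (Sylow p G) := inferInstance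
  have : Fintype (P : Subgroup G) := Fintype.ofFinite _
  obtain ⟨A, hA⟩ : ∃ A, A = (Nat.card G).factorization p := ⟨_, rfl⟩
  have hG0 : Nat.card G ≠ 0 := Nat.card_pos.ne'
  obtain ⟨n', hn'⟩ : ∃ n', Nat.card G = p ^ A * n' := by
    rw [hA]
    exact ⟨_, (Nat.ordProj_mul_ordCompl_eq_self (Nat.card G) p).symm⟩
  have hpn' : ¬ p ∣ n' := by
    intro h
    have h1 : p ^ (A + 1) ∣ Nat.card G := by
      rw [hn', pow_succ]
      exact Nat.mul_dvd_mul_left _ h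
    have h2 := (Nat.Prime.pow_dvd_iff_le_factorization hp hG0).mp h1
    omega
  have hne := IsPBlock.nonempty hMp hB
  obtain ⟨b₀, hb₀⟩ : ∃ b₀, b₀ = sInf ((fun χ : Cfsg.IrrCharacter G =>
      (Cfsg.charDegree (χ : G → ℂ)).factorization p) '' B) := ⟨_, rfl⟩
  obtain ⟨χ₀, hχ₀, hχ₀b⟩ := Nat.sInf_mem (hne.image (fun χ : Cfsg.IrrCharacter G =>
      (Cfsg.charDegree (χ : G → ℂ)).factorization p))
  rw [← hb₀] at hχ₀b
  have hχ₀b' : (Cfsg.charDegree (χ₀ : G → ℂ)).factorization p = b₀ := hχ₀b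
  have hdeg : ∀ χ : Cfsg.IrrCharacter G, (χ : G → ℂ) 1 = (Cfsg.charDegree (χ : G → ℂ) : ℂ) ∧
      0 < Cfsg.charDegree (χ : G → ℂ) ∧ Cfsg.charDegree (χ : G → ℂ) ∣ Nat.card G :=
    fun χ => irr_charDegree χ.2
  have hb₀A : b₀ ≤ A := by
    rw [← hχ₀b', hA]
    exact (Nat.factorization_le_iff_dvd (hdeg χ₀).2.1.ne' hG0).mpr (hdeg χ₀).2.2 p
  have hdvd : ∀ χ ∈ B, p ^ b₀ ∣ Cfsg.charDegree (χ : G → ℂ) := by
    intro χ hχ
    have h1 : b₀ ≤ (Cfsg.charDegree (χ : G → ℂ)).factorization p := by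
      rw [hb₀]
      exact Nat.sInf_le ⟨χ, hχ, rfl⟩
    exact (Nat.Prime.pow_dvd_iff_le_factorization hp (hdeg χ).2.1.ne').mpr h1
  obtain ⟨v, hv⟩ : ∃ v : Cfsg.IrrCharacter G → ℕ,
      ∀ χ ∈ B, Cfsg.charDegree (χ : G → ℂ) = p ^ b₀ * v χ :=
    ⟨fun χ => Cfsg.charDegree (χ : G → ℂ) / p ^ b₀,
      fun χ hχ => (Nat.mul_div_cancel' (hdvd χ hχ)).symm⟩
  have hv₀ : ¬ p ∣ v χ₀ := by
    intro h
    have h1 : p ^ (b₀ + 1) ∣ Cfsg.charDegree (χ₀ : G → ℂ) := by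
      rw [hv χ₀ hχ₀, pow_succ]
      exact Nat.mul_dvd_mul_left _ h
    have h2 := (Nat.Prime.pow_dvd_iff_le_factorization hp (hdeg χ₀).2.1.ne').mp h1
    omega
  -- the multiplicities of the trivial character of `P`
  have hc := fun ψ : Cfsg.IrrCharacter G => exists_sum_sylow_eq P ψ
  choose c hc using hc
  rw [← hA] at hc
  have hsing : ∀ u : (P : Subgroup G), u ≠ 1 → p ∣ orderOf (u : G) := by
    intro u hu
    obtain ⟨j, hj⟩ := (IsPGroup.iff_orderOf.mp P.2) u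
    rw [Subgroup.orderOf_coe, hj]
    have hj0 : j ≠ 0 := by
      rintro rfl
      rw [pow_zero, orderOf_eq_one_iff] at hj
      exact hu hj
    exact dvd_pow_self p hj0
  have hone : ¬ p ∣ orderOf (1 : G) := by
    rw [orderOf_one]
    exact hp.one_lt.ne' ∘ Nat.dvd_one.mp
  -- (I) the sum of squares
  have hI : (∑ χ : Cfsg.IrrCharacter G,
      if χ ∈ B then ((Cfsg.charDegree (χ : G → ℂ) : ℤ)) ^ 2 else 0) =
      (p : ℤ) ^ (A + b₀) * ∑ χ : Cfsg.IrrCharacter G, if χ ∈ B then (v χ : ℤ) * c χ else 0 := by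
    have h1 : ∑ u : (P : Subgroup G), ∑ χ : Cfsg.IrrCharacter G,
        (if χ ∈ B then (χ : G → ℂ) 1 * (χ : G → ℂ) u else 0) =
        ∑ χ : Cfsg.IrrCharacter G, if χ ∈ B then (χ : G → ℂ) 1 * (χ : G → ℂ) 1 else 0 := by
      rw [Finset.sum_eq_single (1 : (P : Subgroup G))]
      · rfl
      · intro u _ hu
        have h2 := Cfsg.Agent.Lib.Helper78.block_orth_regular_singular hM B hB (u := (1 : G))
          (g := (u : G)⁻¹) hone (by rw [orderOf_inv]; exact hsing u hu)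
        rw [inv_inv, finsum_mem_eq_sum_ite] at h2
        exact h2
      · intro h
        exact absurd (Finset.mem_univ _) h
    rw [Finset.sum_comm] at h1
    have h2 : ∀ χ : Cfsg.IrrCharacter G, ∑ u : (P : Subgroup G),
        (if χ ∈ B then (χ : G → ℂ) 1 * (χ : G → ℂ) u else 0) =
        if χ ∈ B then (((p : ℤ) ^ (A + b₀) * ((v χ : ℤ) * c χ) : ℤ) : ℂ) else 0 := by
      intro χ
      by_cases hχ : χ ∈ B
      · simp only [if_pos hχ]
        rw [← Finset.mul_sum, hc χ, (hdeg χ).1, hv χ hχ]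
        push_cast
        ring
      · simp only [if_neg hχ]
        exact Finset.sum_const_zero
    rw [Finset.sum_congr rfl (fun χ _ => h2 χ)] at h1
    have h3 : ((∑ χ : Cfsg.IrrCharacter G,
        if χ ∈ B then ((Cfsg.charDegree (χ : G → ℂ) : ℤ)) ^ 2 else 0 : ℤ) : ℂ) =
        (((p : ℤ) ^ (A + b₀) *
          ∑ χ : Cfsg.IrrCharacter G, if χ ∈ B then (v χ : ℤ) * c χ else 0 : ℤ) : ℂ) := by
      rw [Finset.mul_sum, Int.cast_sum, Int.cast_sum]
      have e1 : ∀ χ : Cfsg.IrrCharacter G,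
          (((if χ ∈ B then ((Cfsg.charDegree (χ : G → ℂ) : ℤ)) ^ 2 else 0 : ℤ)) : ℂ) =
          if χ ∈ B then (χ : G → ℂ) 1 * (χ : G → ℂ) 1 else 0 := by
        intro χ
        by_cases hχ : χ ∈ B
        · rw [if_pos hχ, if_pos hχ, (hdeg χ).1]
          push_cast
          ring
        · rw [if_neg hχ, if_neg hχ]
          simp
      have e2 : ∀ χ : Cfsg.IrrCharacter G,
          (((p : ℤ) ^ (A + b₀) * (if χ ∈ B then (v χ : ℤ) * c χ else 0) : ℤ) : ℂ) =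
          if χ ∈ B then (((p : ℤ) ^ (A + b₀) * ((v χ : ℤ) * c χ) : ℤ) : ℂ) else 0 := by
        intro χ
        by_cases hχ : χ ∈ B
        · rw [if_pos hχ, if_pos hχ]
        · rw [if_neg hχ, if_neg hχ]
          simp
      rw [Finset.sum_congr rfl (fun χ _ => e1 χ), Finset.sum_congr rfl (fun χ _ => e2 χ), ← h1]
    exact_mod_cast h3
  -- (II) the expansion of the truncation of `χ₀`, averaged over `P`
  obtain ⟨a, ha0, haB, hax, -⟩ := Cfsg.Agent.Lib.Helper76.pRegular_norm p M hM B hB χ₀ hχ₀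
  rw [← hA] at haB hax
  have hpA : ((p ^ A : ℕ) : ℂ) ≠ 0 := by exact_mod_cast (pow_pos hp.pos A).ne'
  have hpb : ((p ^ b₀ : ℕ) : ℂ) ≠ 0 := by exact_mod_cast (pow_pos hp.pos b₀).ne'
  have hII1 : ((p ^ A : ℕ) : ℂ) * (χ₀ : G → ℂ) 1 =
      ∑ ψ : Cfsg.IrrCharacter G, (a ψ : ℂ) * (((p ^ A : ℕ) : ℂ) * (c ψ : ℂ)) := by
    have h1 : ∑ u : (P : Subgroup G), (if p ∣ orderOf (u : G) then (0 : ℂ) else
        ((p ^ A : ℕ) : ℂ) * (χ₀ : G → ℂ) u) = ((p ^ A : ℕ) : ℂ) * (χ₀ : G → ℂ) 1 := by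
      rw [Finset.sum_eq_single (1 : (P : Subgroup G))]
      · rw [OneMemClass.coe_one, if_neg hone]
      · intro u _ hu
        rw [if_pos (hsing u hu)]
      · intro h
        exact absurd (Finset.mem_univ _) h
    have h2 : ∑ u : (P : Subgroup G), (if p ∣ orderOf (u : G) then (0 : ℂ) else
        ((p ^ A : ℕ) : ℂ) * (χ₀ : G → ℂ) u) =
        ∑ u : (P : Subgroup G), ∑ ψ : Cfsg.IrrCharacter G, (a ψ : ℂ) * (ψ : G → ℂ) u :=
      Finset.sum_congr rfl (fun u _ => hax (u : G))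
    rw [← h1, h2, Finset.sum_comm]
    refine Finset.sum_congr rfl (fun ψ _ => ?_)
    rw [← Finset.mul_sum, hc ψ]
  have hII2 : (χ₀ : G → ℂ) 1 = ∑ ψ : Cfsg.IrrCharacter G, (a ψ : ℂ) * (c ψ : ℂ) := by
    apply mul_left_cancel₀ hpA
    rw [hII1, Finset.mul_sum]
    refine Finset.sum_congr rfl (fun ψ _ => ?_)
    ring
  have hII3 : ∀ ψ : Cfsg.IrrCharacter G, (n' : ℂ) * (a ψ : ℂ) =
      if ψ ∈ B then ((p ^ b₀ : ℕ) : ℂ) * ((v ψ : ℂ) * regSum p (χ₀ : G → ℂ) (ψ : G → ℂ))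
      else 0 := by
    intro ψ
    by_cases hψ : ψ ∈ B
    · rw [if_pos hψ, haB ψ hψ, classInner_trunc_eq χ₀ ψ A n' hn', (hdeg ψ).1, hv ψ hψ]
      push_cast
      ring
    · rw [if_neg hψ, ha0 ψ hψ]
      simp
  have hII : (n' : ℂ) * (v χ₀ : ℂ) = ∑ ψ : Cfsg.IrrCharacter G,
      if ψ ∈ B then (c ψ : ℂ) * (v ψ : ℂ) * regSum p (χ₀ : G → ℂ) (ψ : G → ℂ) else 0 := by
    apply mul_left_cancel₀ hpb
    have h1 : ((p ^ b₀ : ℕ) : ℂ) * ((n' : ℂ) * (v χ₀ : ℂ)) = (n' : ℂ) * (χ₀ : G → ℂ) 1 := by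
      rw [(hdeg χ₀).1, hv χ₀ hχ₀]
      push_cast
      ring
    rw [h1, hII2, Finset.mul_sum, Finset.mul_sum]
    refine Finset.sum_congr rfl (fun ψ _ => ?_)
    rw [← mul_assoc, hII3 ψ]
    by_cases hψ : ψ ∈ B
    · rw [if_pos hψ, if_pos hψ]
      ring
    · rw [if_neg hψ, if_neg hψ]
      simp
  -- (IV) the cofactor is prime to `p`
  obtain ⟨T, hT⟩ : ∃ T : ℤ, T = ∑ χ : Cfsg.IrrCharacter G,
      if χ ∈ B then (v χ : ℤ) * c χ else 0 := ⟨_, rfl⟩
  have hTC : (T : ℂ) = ∑ χ : Cfsg.IrrCharacter G,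
      if χ ∈ B then (c χ : ℂ) * (v χ : ℂ) else 0 := by
    rw [hT, Int.cast_sum]
    refine Finset.sum_congr rfl (fun χ _ => ?_)
    by_cases hχ : χ ∈ B
    · rw [if_pos hχ, if_pos hχ]
      push_cast
      ring
    · rw [if_neg hχ, if_neg hχ]
      simp
  have hpT : ¬ (p : ℤ) ∣ T := by
    intro hdiv
    have hTJ : Cfsg.MemLocalIdeal M (T : ℂ) := by
      obtain ⟨t, ht⟩ := hdiv
      rw [ht]
      push_cast
      exact memLocalIdeal_mul_right hMp ((memLocalIdeal_natCast_iff hM p).mpr dvd_rfl)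
        (memLocalRing_intCast hMp t)
    have h1 : (n' : ℂ) * (v χ₀ : ℂ) = (∑ ψ : Cfsg.IrrCharacter G,
        if ψ ∈ B then (c ψ : ℂ) * (v ψ : ℂ) *
          (regSum p (χ₀ : G → ℂ) (ψ : G → ℂ) - regSum p (χ₀ : G → ℂ) (χ₀ : G → ℂ)) else 0) +
        (T : ℂ) * regSum p (χ₀ : G → ℂ) (χ₀ : G → ℂ) := by
      rw [hII, hTC, Finset.sum_mul, ← Finset.sum_add_distrib]
      refine Finset.sum_congr rfl (fun ψ _ => ?_)
      by_cases hψ : ψ ∈ B
      · simp only [if_pos hψ]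
        ring
      · simp only [if_neg hψ]
        ring
    have h2 : Cfsg.MemLocalIdeal M ((n' : ℂ) * (v χ₀ : ℂ)) := by
      rw [h1]
      apply memLocalIdeal_add hMp
      · apply memLocalIdeal_sum hMp
        intro ψ _
        by_cases hψ : ψ ∈ B
        · rw [if_pos hψ]
          exact memLocalIdeal_mul_left hMp
            (memLocalRing_mul hMp (memLocalRing_intCast hMp _) (memLocalRing_natCast hMp _))
            (memLocalIdeal_regSum_sub hMp χ₀ ψ χ₀ (IsPBlock.sameBlock hMp hB hψ hχ₀))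
        · rw [if_neg hψ]
          exact memLocalIdeal_zero hMp
      · exact memLocalIdeal_mul_right hMp hTJ (memLocalRing_regSum hMp χ₀ χ₀)
    have h3 : Cfsg.MemLocalIdeal M (((n' * v χ₀ : ℕ)) : ℂ) := by
      push_cast
      exact h2
    have h4 := (memLocalIdeal_natCast_iff hM _).mp h3
    rcases (Nat.Prime.dvd_mul hp).mp h4 with h | h
    · exact hpn' h
    · exact hv₀ h
  -- (V) conclusion
  have hS : (∑ᶠ χ ∈ B, Cfsg.charDegree (χ : G → ℂ) ^ 2) =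
      ∑ χ : Cfsg.IrrCharacter G, if χ ∈ B then Cfsg.charDegree (χ : G → ℂ) ^ 2 else 0 := by
    rw [finsum_mem_def, finsum_eq_sum_of_fintype]
    refine Finset.sum_congr rfl (fun χ _ => ?_)
    by_cases hχ : χ ∈ B <;> simp [hχ]
  have hSZ : ((∑ χ : Cfsg.IrrCharacter G,
      if χ ∈ B then Cfsg.charDegree (χ : G → ℂ) ^ 2 else 0 : ℕ) : ℤ) =
      (p : ℤ) ^ (A + b₀) * T := by
    rw [hT, ← hI, Nat.cast_sum]
    refine Finset.sum_congr rfl (fun χ _ => ?_)
    by_cases hχ : χ ∈ B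
    · rw [if_pos hχ, if_pos hχ]
      push_cast
      rfl
    · rw [if_neg hχ, if_neg hχ]
      rfl
  have hT0 : T ≠ 0 := fun h => hpT (h ▸ dvd_zero _)
  have hTpos : 0 < T := by
    by_contra hneg
    have hlt : T < 0 := lt_of_le_of_ne (not_lt.mp hneg) hT0
    have h1 : (p : ℤ) ^ (A + b₀) * T < 0 :=
      mul_neg_of_pos_of_neg (pow_pos (by exact_mod_cast hp.pos) _) hlt
    rw [← hSZ] at h1
    exact absurd h1 (not_lt.mpr (Int.natCast_nonneg _))
  obtain ⟨t, ht⟩ := Int.eq_ofNat_of_zero_le hTpos.le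
  have hSN : (∑ χ : Cfsg.IrrCharacter G,
      if χ ∈ B then Cfsg.charDegree (χ : G → ℂ) ^ 2 else 0) = p ^ (A + b₀) * t := by
    have h1 : ((∑ χ : Cfsg.IrrCharacter G,
        if χ ∈ B then Cfsg.charDegree (χ : G → ℂ) ^ 2 else 0 : ℕ) : ℤ) =
        ((p ^ (A + b₀) * t : ℕ) : ℤ) := by
      rw [hSZ, ht]
      push_cast
      rfl
    exact_mod_cast h1
  have hpt : ¬ p ∣ t := by
    intro h
    apply hpT
    rw [ht]
    exact Int.natCast_dvd_natCast.mpr h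
  have ht0 : t ≠ 0 := fun h => hpt (h ▸ dvd_zero p)
  rw [hS, hSN, Nat.factorization_mul (pow_ne_zero _ hp.ne_zero) ht0, Finsupp.add_apply,
    Nat.Prime.factorization_pow hp, Finsupp.single_eq_same,
    Nat.factorization_eq_zero_of_not_dvd hpt, add_zero]
  unfold Cfsg.blockDefect
  rw [← hA, ← hb₀]
  omega

end

end Cfsg.Agent.Lib.Helper79
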