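import Mathlib
import Cfsg.Prelude.Def_Blocks
import Cfsg.Agent.Lib.Helper3.PRegular
import Cfsg.Agent.Lib.Helper3.CharValues
import Cfsg.Agent.Lib.Helper75.CharDecomp
import Cfsg.Agent.Lib.Helper16.ClassSum
import Cfsg.Agent.Lib.Helper16.Osima
import Cfsg.Agent.Lib.Helper79.ClassMult
import Cfsg.Agent.Lib.Helper79.CharSum
import Cfsg.Agent.Lib.Helper81.CharCore

/-!
# Families of characters agreeing on `p`-regular elements

If `F` is a set of irreducible characters all agreeing with `χ` on the `p`-regular elements, the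
generalized character `|G|_p χ` cut off to the `p`-regular elements contains every member of `F`
with the same multiplicity, which bounds `|F| χ(1)_p`.
-/

set_option autoImplicit false

namespace Cfsg.Agent.Lib.Helper79

open Cfsg
open scoped ComplexConjugate

section PConj

variable {G : Type*} [Group G] [Fintype G]

theorem classInner_sub_left' (f₁ f₂ h : G → ℂ) :
    Cfsg.classInner (f₁ - f₂) h = Cfsg.classInner f₁ h - Cfsg.classInner f₂ h := by
  unfold Cfsg.classInner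
  rw [← mul_sub, ← Finset.sum_sub_distrib]
  congr 1
  refine Finset.sum_congr rfl (fun g _ => ?_)
  simp [sub_mul]

theorem classInner_genChar_int {θ ψ : G → ℂ} (hθ : Cfsg.IsGeneralizedCharacter G θ)
    (hψ : Cfsg.IsIrrCharacter G ψ) : ∃ n : ℤ, Cfsg.classInner θ ψ = n := by
  obtain ⟨α, β, hα, hβ, rfl⟩ := hθ
  obtain ⟨m₁, h₁⟩ := Cfsg.Agent.Lib.Helper75.classInner_char_irr_nat hα hψ
  obtain ⟨m₂, h₂⟩ := Cfsg.Agent.Lib.Helper75.classInner_char_irr_nat hβ hψ
  refine ⟨(m₁ : ℤ) - m₂, ?_⟩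
  rw [classInner_sub_left', h₁, h₂]
  push_cast
  ring

omit [Fintype G] in
theorem isClassFunction_of_genChar {θ : G → ℂ} (hθ : Cfsg.IsGeneralizedCharacter G θ) :
    Cfsg.IsClassFunction G θ := by
  obtain ⟨α, β, hα, hβ, rfl⟩ := hθ
  intro g h
  show α _ - β _ = α _ - β _
  rw [Cfsg.Agent.Lib.Helper3.isClassFunction_of_isCharacter hα g h,
    Cfsg.Agent.Lib.Helper3.isClassFunction_of_isCharacter hβ g h]

theorem classInner_self_of_int [Fintype (Cfsg.IrrCharacter G)] {θ : G → ℂ}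
    (hθ : Cfsg.IsClassFunction G θ) (n : Cfsg.IrrCharacter G → ℤ)
    (hn : ∀ ψ : Cfsg.IrrCharacter G, Cfsg.classInner θ (ψ : G → ℂ) = n ψ) :
    Cfsg.classInner θ θ = ((∑ ψ : Cfsg.IrrCharacter G, n ψ ^ 2 : ℤ) : ℂ) := by
  have hsum : θ = ∑ ψ : Cfsg.IrrCharacter G, ((n ψ : ℤ) : ℂ) • (ψ : G → ℂ) := by
    conv_lhs => rw [Cfsg.Agent.Lib.Helper3.classFunction_expansion' hθ]
    exact Finset.sum_congr rfl (fun ψ _ => by rw [hn ψ])
  have h2 : Cfsg.classInner θ θ =
      ∑ ψ : Cfsg.IrrCharacter G, ((n ψ : ℤ) : ℂ) * ((n ψ : ℤ) : ℂ) := by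
    conv_lhs => rw [hsum]
    rw [Cfsg.Agent.Lib.Helper75.classInner_sum_left]
    refine Finset.sum_congr rfl (fun ψ _ => ?_)
    rw [Cfsg.Agent.Lib.Helper75.classInner_smul_left, ← hsum,
      Cfsg.Agent.Lib.Helper75.classInner_conj_symm, hn ψ]
    simp
  rw [h2]
  push_cast
  exact Finset.sum_congr rfl (fun ψ _ => by ring)

/-- **Counting characters that agree on `p`-regular elements.** -/
theorem pconj_count [Fintype (Cfsg.IrrCharacter G)] (p : ℕ) (hp : p.Prime)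
    (χ : Cfsg.IrrCharacter G) (F : Finset (Cfsg.IrrCharacter G)) (hχF : χ ∈ F)
    (hreg : ∀ ψ ∈ F, ∀ g : G, ¬ p ∣ orderOf g → (ψ : G → ℂ) g = (χ : G → ℂ) g)
    (hsyl : ∀ ψ ∈ F, ∀ P : Sylow p G, ∀ _ : Fintype (P : Subgroup G),
      ∑ x : (P : Subgroup G), (ψ : G → ℂ) (x : G) =
      ∑ x : (P : Subgroup G), (χ : G → ℂ) (x : G)) :
    (F.card * Cfsg.charDegree (χ : G → ℂ)).factorization p ≤ (Nat.card G).factorization p ∧
    (p ^ (Nat.card G).factorization p ∣ F.card * Cfsg.charDegree (χ : G → ℂ) →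
      p ^ (Nat.card G).factorization p ∣ Cfsg.charDegree (χ : G → ℂ)) := by
  classical
  obtain ⟨θ, hθdef⟩ : ∃ θ : G → ℂ, θ = fun x : G => if p ∣ orderOf x then 0
      else ((p ^ (Nat.card G).factorization p : ℕ) : ℂ) * (χ : G → ℂ) x := ⟨_, rfl⟩
  have hθ : Cfsg.IsGeneralizedCharacter G θ := by
    rw [hθdef]
    exact Cfsg.Agent.Lib.Helper3.pPart_mul_char_isGeneralizedCharacter p hp
      (Cfsg.Agent.Lib.Helper3.isCharacter_of_irr χ.2)
  obtain ⟨a, ha⟩ : ∃ a : ℕ, a = (Nat.card G).factorization p := ⟨_, rfl⟩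
  obtain ⟨d, hd⟩ : ∃ d : ℕ, d = Cfsg.charDegree (χ : G → ℂ) := ⟨_, rfl⟩
  rw [← ha, ← hd]
  rw [← ha] at hθdef
  obtain ⟨hd1, hdpos, hddvd⟩ := irr_charDegree χ.2
  rw [← hd] at hd1 hdpos hddvd
  have hθsing : ∀ x : G, p ∣ orderOf x → θ x = 0 := by
    intro x hx
    rw [hθdef]
    exact if_pos hx
  have hθreg : ∀ x : G, ¬ p ∣ orderOf x → θ x = ((p ^ a : ℕ) : ℂ) * (χ : G → ℂ) x := by
    intro x hx
    rw [hθdef]
    exact if_neg hx
  have hθcl := isClassFunction_of_genChar hθ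
  choose n hn using fun ψ : Cfsg.IrrCharacter G => classInner_genChar_int hθ ψ.2
  obtain ⟨c, hc⟩ : ∃ c : ℤ, c = n χ := ⟨_, rfl⟩
  -- multiplicities on F
  have hnF : ∀ ψ ∈ F, n ψ = c := by
    intro ψ hψ
    have h1 : Cfsg.classInner θ (ψ : G → ℂ) = Cfsg.classInner θ (χ : G → ℂ) := by
      unfold Cfsg.classInner
      congr 1
      refine Finset.sum_congr rfl (fun g _ => ?_)
      by_cases hg : p ∣ orderOf g
      · rw [hθsing g hg, zero_mul, zero_mul]
      · rw [hreg ψ hψ g hg]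
    rw [hn ψ, hn χ, ← hc] at h1
    exact_mod_cast h1
  -- the norm
  have hnorm : Cfsg.classInner θ θ = ((p ^ a : ℕ) : ℂ) * (c : ℂ) := by
    rw [hc, ← hn χ]
    have h1 : ∀ g : G, θ g * conj (θ g) =
        ((p ^ a : ℕ) : ℂ) * (θ g * conj ((χ : G → ℂ) g)) := by
      intro g
      by_cases hg : p ∣ orderOf g
      · rw [hθsing g hg]
        simp
      · rw [hθreg g hg]
        simp
        ring
    unfold Cfsg.classInner
    rw [Finset.sum_congr rfl (fun g _ => h1 g), ← Finset.mul_sum]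
    ring
  have hsq : ∑ ψ : Cfsg.IrrCharacter G, n ψ ^ 2 = (p ^ a : ℤ) * c := by
    have h1 := classInner_self_of_int hθcl n hn
    rw [hnorm] at h1
    have h2 : (((p ^ a : ℤ) * c : ℤ) : ℂ) =
        ((∑ ψ : Cfsg.IrrCharacter G, n ψ ^ 2 : ℤ) : ℂ) := by
      rw [← h1]
      push_cast
      ring
    exact_mod_cast h2.symm
  have hpa : 0 < p ^ a := pow_pos hp.pos a
  have hθ1 : θ 1 = ((p ^ a : ℕ) : ℂ) * (d : ℂ) := by
    rw [hθreg 1 (by rw [orderOf_one]; exact fun h => hp.one_lt.ne' (Nat.dvd_one.mp h)), hd1]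
  have hexp : θ = ∑ ψ : Cfsg.IrrCharacter G, ((n ψ : ℤ) : ℂ) • (ψ : G → ℂ) := by
    conv_lhs => rw [Cfsg.Agent.Lib.Helper3.classFunction_expansion' hθcl]
    exact Finset.sum_congr rfl (fun ψ _ => by rw [hn ψ])
  have hc0 : c ≠ 0 := by
    intro h0
    rw [h0, mul_zero] at hsq
    have hz : ∀ ψ : Cfsg.IrrCharacter G, n ψ = 0 := by
      intro ψ
      have h1 := (Finset.sum_eq_zero_iff_of_nonneg (fun ψ _ => sq_nonneg (n ψ))).mp hsq ψ
        (Finset.mem_univ ψ)
      exact pow_eq_zero_iff (two_ne_zero) |>.mp h1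
    have hθ0 : θ = 0 := by
      rw [hexp]
      refine Finset.sum_eq_zero (fun ψ _ => ?_)
      rw [hz ψ]
      simp
    rw [hθ0] at hθ1
    have h2 : ((p ^ a : ℕ) : ℂ) * (d : ℂ) ≠ 0 := by
      exact_mod_cast (Nat.mul_pos hpa hdpos).ne'
    exact h2 hθ1.symm
  have hpaZ : (0 : ℤ) < (p ^ a : ℤ) := by exact_mod_cast hpa
  have hcpos : 0 < c := by
    have h1 : 0 ≤ (p ^ a : ℤ) * c := by
      rw [← hsq]
      exact Finset.sum_nonneg (fun ψ _ => sq_nonneg (n ψ))
    rcases lt_trichotomy c 0 with h | h | h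
    · nlinarith
    · exact absurd h hc0
    · exact h
  have hbessel : (F.card : ℤ) * c ^ 2 ≤ (p ^ a : ℤ) * c := by
    rw [← hsq]
    calc (F.card : ℤ) * c ^ 2 = ∑ ψ ∈ F, n ψ ^ 2 := by
          rw [Finset.sum_congr rfl (fun ψ hψ => by rw [hnF ψ hψ]), Finset.sum_const,
            nsmul_eq_mul]
      _ ≤ ∑ ψ : Cfsg.IrrCharacter G, n ψ ^ 2 :=
          Finset.sum_le_sum_of_subset_of_nonneg (Finset.subset_univ F)
            (fun ψ _ _ => sq_nonneg (n ψ))
  have hrcZ : (F.card : ℤ) * c ≤ (p ^ a : ℤ) := by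
    have h1 : (F.card : ℤ) * c * c ≤ (p ^ a : ℤ) * c := by
      rw [mul_assoc, ← sq]
      exact hbessel
    exact le_of_mul_le_mul_right h1 hcpos
  obtain ⟨cn, hcn⟩ := Int.eq_ofNat_of_zero_le hcpos.le
  have hcnpos : 0 < cn := by
    rw [hcn] at hcpos
    exact_mod_cast hcpos
  have hrc : F.card * cn ≤ p ^ a := by
    rw [hcn] at hrcZ
    exact_mod_cast hrcZ
  have hcC : Cfsg.classInner θ (χ : G → ℂ) = (cn : ℂ) := by
    rw [hn χ, ← hc, hcn]
    simp
  -- integrality: d ∣ m' * c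
  obtain ⟨m', hm'⟩ : ∃ m' : ℕ, m' = Nat.card G / p ^ a := ⟨_, rfl⟩
  have hN : p ^ a * m' = Nat.card G := by
    rw [hm', ha]
    exact Nat.ordProj_mul_ordCompl_eq_self (Nat.card G) p
  have hdC : (d : ℂ) ≠ 0 := by exact_mod_cast hdpos.ne'
  have hdvd : d ∣ m' * cn := by
    obtain ⟨φ, hφdef⟩ : ∃ φ : G → ℂ, φ = fun g => if p ∣ orderOf g then 0
        else (χ : G → ℂ) g * conj ((χ : G → ℂ) g) / (χ : G → ℂ) 1 := ⟨_, rfl⟩
    have hint : IsIntegral ℤ (∑ g : G, φ g) := by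
      refine Cfsg.Agent.Lib.Helper16.sum_class_invariant_mem (fun z => IsIntegral ℤ z)
        isIntegral_zero (fun _ _ h1 h2 => h1.add h2) φ ?_ ?_ Finset.univ
        (fun _ _ _ => Finset.mem_univ _)
      · intro x h
        have h1 : orderOf (x * h * x⁻¹) = orderOf h :=
          (SemiconjBy.orderOf_eq x (show SemiconjBy x h (x * h * x⁻¹) by
            unfold SemiconjBy; group)).symm
        rw [hφdef]
        simp only [h1, irr_conj_eq χ.2]
      · intro h
        rw [hφdef]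
        by_cases hh : p ∣ orderOf h
        · simp only [if_pos hh, mul_zero]
          exact isIntegral_zero
        · simp only [if_neg hh]
          have e : ((Subgroup.centralizer ({h} : Set G)).index : ℂ) *
              ((χ : G → ℂ) h * conj ((χ : G → ℂ) h) / (χ : G → ℂ) 1) =
              Cfsg.centralChar (χ : G → ℂ) h * (χ : G → ℂ) h⁻¹ := by
            unfold Cfsg.centralChar
            rw [Cfsg.Agent.Lib.Helper81.irr_inv χ h]
            ring
          rw [e]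
          exact (Cfsg.Agent.Lib.Helper16.isIntegral_centralChar_irr χ h).mul
            (irr_isIntegral χ.2 h⁻¹)
    have hval : ((m' * cn : ℕ) : ℂ) = (d : ℂ) * ∑ g : G, φ g := by
      have h1 : ∀ g : G, θ g * conj ((χ : G → ℂ) g) = ((p ^ a : ℕ) : ℂ) * (d : ℂ) * φ g := by
        intro g
        rw [hφdef]
        by_cases hg : p ∣ orderOf g
        · simp only [if_pos hg]
          rw [hθsing g hg]
          ring
        · simp only [if_neg hg]
          rw [hθreg g hg, hd1]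
          field_simp
      have h2 := hcC
      unfold Cfsg.classInner at h2
      rw [Finset.sum_congr rfl (fun g _ => h1 g), ← Finset.mul_sum, ← hN] at h2
      have hpaC : ((p ^ a : ℕ) : ℂ) ≠ 0 := by exact_mod_cast hpa.ne'
      have hm'C : (m' : ℂ) ≠ 0 := by
        intro h0
        have h0' : m' = 0 := by exact_mod_cast h0
        rw [h0', mul_zero] at hN
        exact Nat.card_pos.ne' hN.symm
      have hpC : (p : ℂ) ≠ 0 := by exact_mod_cast hp.ne_zero
      push_cast at h2 ⊢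
      rw [← h2]
      field_simp
    exact nat_dvd_of_eq_mul_isIntegral _ d hdpos.ne' _ hint hval
  -- arithmetic
  have hFpos : 0 < F.card := Finset.card_pos.mpr ⟨χ, hχF⟩
  obtain ⟨b, hb⟩ : ∃ b : ℕ, b = d.factorization p := ⟨_, rfl⟩
  obtain ⟨s, hs⟩ : ∃ s : ℕ, s = F.card.factorization p := ⟨_, rfl⟩
  have hfac : (F.card * d).factorization p = s + b := by
    rw [Nat.factorization_mul hFpos.ne' hdpos.ne', Finsupp.add_apply, ← hs, ← hb]
  have hbc : p ^ b ∣ cn := by
    have h1 : p ^ b ∣ m' * cn := dvd_trans (by rw [hb]; exact Nat.ordProj_dvd d p) hdvd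
    have hcop : Nat.Coprime (p ^ b) m' := by
      rw [hm', ha]
      exact (Nat.coprime_ordCompl hp Nat.card_pos.ne').pow_left b
    exact hcop.dvd_of_dvd_mul_left h1
  have hsb : p ^ (s + b) ∣ F.card * cn := by
    rw [pow_add]
    exact Nat.mul_dvd_mul (by rw [hs]; exact Nat.ordProj_dvd F.card p) hbc
  have hle : s + b ≤ a := by
    have h1 : p ^ (s + b) ≤ p ^ a :=
      le_trans (Nat.le_of_dvd (Nat.mul_pos hFpos hcnpos) hsb) hrc
    exact (Nat.pow_le_pow_iff_right hp.one_lt).mp h1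
  refine ⟨by rw [hfac]; exact hle, ?_⟩
  intro hdiv
  have hge : a ≤ s + b := by
    rw [← hfac]
    exact (hp.pow_dvd_iff_le_factorization (Nat.mul_pos hFpos hdpos).ne').mp hdiv
  have hab : s + b = a := le_antisymm hle hge
  have hrc_eq : F.card * cn = p ^ a := by
    rw [hab] at hsb
    exact le_antisymm hrc (Nat.le_of_dvd (Nat.mul_pos hFpos hcnpos) hsb)
  -- multiplicities vanish off F
  have hzero : ∀ ψ : Cfsg.IrrCharacter G, ψ ∉ F → n ψ = 0 := by
    have hsplit : ∑ ψ : Cfsg.IrrCharacter G, n ψ ^ 2 =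
        ∑ ψ ∈ F, n ψ ^ 2 + ∑ ψ ∈ Fᶜ, n ψ ^ 2 := (Finset.sum_add_sum_compl F _).symm
    have hF : ∑ ψ ∈ F, n ψ ^ 2 = (F.card : ℤ) * c ^ 2 := by
      rw [Finset.sum_congr rfl (fun ψ hψ => by rw [hnF ψ hψ]), Finset.sum_const, nsmul_eq_mul]
    have hpc : (p ^ a : ℤ) * c = (F.card : ℤ) * c ^ 2 := by
      have h1 : (p ^ a : ℤ) = (F.card : ℤ) * c := by
        rw [hcn]
        exact_mod_cast hrc_eq.symm
      rw [h1]
      ring
    have hcompl : ∑ ψ ∈ Fᶜ, n ψ ^ 2 = 0 := by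
      rw [hsq, hF, hpc] at hsplit
      linarith
    intro ψ hψ
    have h1 := (Finset.sum_eq_zero_iff_of_nonneg (fun ψ _ => sq_nonneg (n ψ))).mp hcompl ψ
      (Finset.mem_compl.mpr hψ)
    exact pow_eq_zero_iff (two_ne_zero) |>.mp h1
  have hθF : ∀ x : G, θ x = (cn : ℂ) * ∑ ψ ∈ F, (ψ : G → ℂ) x := by
    intro x
    rw [hexp, Finset.sum_apply, Finset.mul_sum, ← Finset.sum_subset (Finset.subset_univ F)]
    · refine Finset.sum_congr rfl (fun ψ hψ => ?_)
      rw [hnF ψ hψ, hcn]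
      simp
    · intro ψ _ hψ
      rw [hzero ψ hψ]
      simp
  have : Fact p.Prime := ⟨hp⟩
  obtain ⟨P⟩ : Nonempty (Sylow p G) := inferInstance
  have hP : Nat.card (P : Subgroup G) = p ^ a := by
    rw [ha]
    exact Sylow.card_eq_multiplicity P
  let _ : Fintype (P : Subgroup G) := Fintype.ofFinite _
  have hsumθ : ∑ x : (P : Subgroup G), θ (x : G) = θ 1 := by
    rw [Finset.sum_eq_single (1 : (P : Subgroup G))]
    · rfl
    · intro x _ hx
      apply hθsing
      have h1 : orderOf (x : G) ∣ p ^ a := by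
        rw [← hP, Subgroup.orderOf_coe]
        exact orderOf_dvd_natCard x
      obtain ⟨k, -, hk'⟩ := (Nat.dvd_prime_pow hp).mp h1
      rcases k with _ | k
      · exfalso
        rw [pow_zero, Subgroup.orderOf_coe] at hk'
        exact hx (orderOf_eq_one_iff.mp hk')
      · rw [hk', pow_succ]
        exact dvd_mul_left p _
    · intro h
      exact absurd (Finset.mem_univ _) h
  obtain ⟨k, hk⟩ := irr_sum_subgroup χ.2 (P : Subgroup G)
  have h2 : ∑ x : (P : Subgroup G), θ (x : G) =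
      (cn : ℂ) * ((F.card : ℂ) * ((Nat.card (P : Subgroup G) : ℂ) * (k : ℂ))) := by
    have e1 : ∀ x : (P : Subgroup G), θ (x : G) =
        (cn : ℂ) * ∑ ψ ∈ F, (ψ : G → ℂ) (x : G) := fun x => hθF x
    rw [Finset.sum_congr rfl (fun x _ => e1 x), ← Finset.mul_sum, Finset.sum_comm,
      Finset.sum_congr rfl (fun ψ hψ => hsyl ψ hψ P _), Finset.sum_const, nsmul_eq_mul, hk]
  rw [hsumθ, hθ1, hP] at h2
  have h3 : ((p ^ a * d : ℕ) : ℂ) = ((p ^ a * (p ^ a * k) : ℕ) : ℂ) := by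
    have h5 : ((p ^ a : ℕ) : ℂ) = (F.card : ℂ) * (cn : ℂ) := by exact_mod_cast hrc_eq.symm
    push_cast at h2 h5 ⊢
    rw [h2]
    linear_combination (-((p : ℂ) ^ a * (k : ℂ))) * h5
  have h4 : p ^ a * d = p ^ a * (p ^ a * k) := by exact_mod_cast h3
  exact ⟨k, Nat.eq_of_mul_eq_mul_left hpa h4⟩

end PConj

end Cfsg.Agent.Lib.Helper79
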