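import Mathlib
import Cfsg.Prelude.Def_Blocks
import Cfsg.Agent.Lib.Helper16.CentProd
import Cfsg.Agent.Lib.Helper16.PRegular
import Cfsg.Agent.Lib.Helper79.CentProd2

/-!
# Central products and principal blocks

`G = U₁ U₂` with `[U₁, U₂] = 1` and `U₁ ∩ U₂` a `p`-group: an irreducible character of `G`
is a product `φ₁ φ₂`, and it lies in the principal block iff both factors do.
-/

set_option autoImplicit false
set_option linter.unusedSectionVars false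

namespace Cfsg.Agent.Lib.Helper79

open Cfsg Cfsg.Agent.Lib.Helper16
open scoped ComplexConjugate

section

variable {G : Type*} [Group G]

/-- the multiplication map `U₁ × U₂ → G` for elementwise commuting subgroups -/
def cprodHom (U₁ U₂ : Subgroup G) (hcomm : ∀ u ∈ U₁, ∀ v ∈ U₂, u * v = v * u) : U₁ × U₂ →* G where
  toFun z := (z.1 : G) * (z.2 : G)
  map_one' := by simp
  map_mul' := by
    rintro ⟨x, c⟩ ⟨x', c'⟩
    have h : (x' : G) * (c : G) = (c : G) * (x' : G) := hcomm x' x'.2 c c.2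
    show ((x * x' : U₁) : G) * ((c * c' : U₂) : G) = (x : G) * c * (x' * c')
    rw [Subgroup.coe_mul, Subgroup.coe_mul]
    calc (x : G) * x' * (c * c') = x * (x' * c) * c' := by group
      _ = x * (c * x') * c' := by rw [h]
      _ = x * c * (x' * c') := by group

theorem cprodHom_apply (U₁ U₂ : Subgroup G) (hcomm : ∀ u ∈ U₁, ∀ v ∈ U₂, u * v = v * u)
    (x : U₁) (c : U₂) : cprodHom U₁ U₂ hcomm (x, c) = (x : G) * (c : G) := rfl

theorem cprodHom_surjective (U₁ U₂ : Subgroup G) (hcomm : ∀ u ∈ U₁, ∀ v ∈ U₂, u * v = v * u)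
    (hgen : U₁ ⊔ U₂ = ⊤) : Function.Surjective (cprodHom U₁ U₂ hcomm) := by
  rw [← MonoidHom.range_eq_top, eq_top_iff, ← hgen]
  apply sup_le
  · intro x hx
    exact ⟨(⟨x, hx⟩, 1), by simp [cprodHom]⟩
  · intro c hc
    exact ⟨(1, ⟨c, hc⟩), by simp [cprodHom]⟩

/-- every irreducible character of a central product is a product -/
theorem exists_cprod_decomp [Finite G] (U₁ U₂ : Subgroup G)
    (hcomm : ∀ u ∈ U₁, ∀ v ∈ U₂, u * v = v * u) (hgen : U₁ ⊔ U₂ = ⊤)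
    (χ : Cfsg.IrrCharacter G) :
    ∃ (φ₁ : Cfsg.IrrCharacter U₁) (φ₂ : Cfsg.IrrCharacter U₂),
      ∀ (x : U₁) (c : U₂), (χ : G → ℂ) ((x : G) * (c : G)) = (φ₁ : U₁ → ℂ) x * (φ₂ : U₂ → ℂ) c := by
  have h1 := Cfsg.Agent.Lib.Helper80.isIrrCharacter_comp (cprodHom U₁ U₂ hcomm)
    (cprodHom_surjective U₁ U₂ hcomm hgen) χ.2
  obtain ⟨φ, ψ, hφ, hψ, heq⟩ := (Cfsg.Agent.S0188.result _).mp h1
  exact ⟨⟨φ, hφ⟩, ⟨ψ, hψ⟩, fun x c => congrFun heq (x, c)⟩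

/-- the `p`-part-killing power of an element is `p`-regular -/
theorem pRegular_pow_pPart [Finite G] {p : ℕ} (hp : p.Prime) (u : G) :
    ¬ p ∣ orderOf (u ^ p ^ (Nat.card G).factorization p) := by
  have hG0 : Nat.card G ≠ 0 := Nat.card_pos.ne'
  obtain ⟨r, hr⟩ := Nat.ordProj_dvd (Nat.card G) p
  have hr' : ¬ p ∣ r := by
    intro h
    have h1 : p ^ ((Nat.card G).factorization p + 1) ∣ Nat.card G := by
      rw [pow_succ]
      conv_rhs => rw [hr]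
      exact Nat.mul_dvd_mul_left _ h
    have h2 := (hp.pow_dvd_iff_le_factorization hG0).mp h1
    omega
  have h1 : orderOf (u ^ p ^ (Nat.card G).factorization p) ∣ r := by
    apply orderOf_dvd_of_pow_eq_one
    rw [← pow_mul, ← hr]
    exact pow_card_eq_one'
  exact fun h => hr' (dvd_trans h h1)

/-- a `p`-regular element of a central product is a product of `p`-regular elements -/
theorem exists_pRegular_factors [Finite G] {p : ℕ} (hp : p.Prime) (U₁ U₂ : Subgroup G)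
    (hcomm : ∀ u ∈ U₁, ∀ v ∈ U₂, u * v = v * u) (hgen : U₁ ⊔ U₂ = ⊤) (g : G)
    (hg : ¬ p ∣ orderOf g) :
    ∃ (x₁ : U₁) (x₂ : U₂), ¬ p ∣ orderOf (x₁ : G) ∧ ¬ p ∣ orderOf (x₂ : G) ∧
      g = (x₁ : G) * (x₂ : G) := by
  obtain ⟨⟨u₁, u₂⟩, hu⟩ := cprodHom_surjective U₁ U₂ hcomm hgen g
  rw [cprodHom_apply] at hu
  set m := p ^ (Nat.card G).factorization p with hm
  have hcop : Nat.Coprime m (orderOf g) :=
    Nat.Coprime.pow_left _ ((Nat.Prime.coprime_iff_not_dvd hp).mpr hg)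
  obtain ⟨j, hj⟩ := exists_pow_eq_self_of_coprime hcop
  have hc : Commute (u₁ : G) (u₂ : G) := hcomm u₁ u₁.2 u₂ u₂.2
  refine ⟨(u₁ ^ m) ^ j, (u₂ ^ m) ^ j, ?_, ?_, ?_⟩
  · rw [Subgroup.coe_pow, Subgroup.coe_pow]
    exact fun h => pRegular_pow_pPart hp (u₁ : G) (dvd_trans h (orderOf_pow_dvd j))
  · rw [Subgroup.coe_pow, Subgroup.coe_pow]
    exact fun h => pRegular_pow_pPart hp (u₂ : G) (dvd_trans h (orderOf_pow_dvd j))
  · rw [Subgroup.coe_pow, Subgroup.coe_pow, Subgroup.coe_pow, Subgroup.coe_pow,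
      ← ((hc.pow_pow m m).mul_pow j), ← hc.mul_pow, hu, hj]


/-- class sizes of products of `p`-regular elements in a central product with `U₁ ∩ U₂` a
`p`-group -/
theorem index_centralizer_cprod [Finite G] {p : ℕ} [Fact p.Prime] (U₁ U₂ : Subgroup G)
    (hcomm : ∀ u ∈ U₁, ∀ v ∈ U₂, u * v = v * u) (hgen : U₁ ⊔ U₂ = ⊤)
    (hZ : IsPGroup p ↥(U₁ ⊓ U₂)) (x₁ : U₁) (x₂ : U₂) (h₁ : ¬ p ∣ orderOf (x₁ : G))
    (h₂ : ¬ p ∣ orderOf (x₂ : G)) :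
    (Subgroup.centralizer ({(x₁ : G) * (x₂ : G)} : Set G)).index =
      (Subgroup.centralizer ({x₁} : Set U₁)).index * (Subgroup.centralizer ({x₂} : Set U₂)).index := by
  rw [← Subgroup.index_comap_of_surjective
    (Subgroup.centralizer ({(x₁ : G) * (x₂ : G)} : Set G)) (cprodHom_surjective U₁ U₂ hcomm hgen),
    ← Subgroup.index_prod]
  congr 1
  ext ⟨v₁, v₂⟩
  rw [Subgroup.mem_comap, Subgroup.mem_prod, Subgroup.mem_centralizer_singleton_iff,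
    Subgroup.mem_centralizer_singleton_iff, Subgroup.mem_centralizer_singleton_iff]
  show (v₁ : G) * (v₂ : G) * ((x₁ : G) * (x₂ : G)) = (x₁ : G) * (x₂ : G) * ((v₁ : G) * (v₂ : G)) ↔
    v₁ * x₁ = x₁ * v₁ ∧ v₂ * x₂ = x₂ * v₂
  have c12 : (v₂ : G) * (x₁ : G) = (x₁ : G) * (v₂ : G) := (hcomm x₁ x₁.2 v₂ v₂.2).symm
  have c21 : (x₂ : G) * (v₁ : G) = (v₁ : G) * (x₂ : G) := (hcomm v₁ v₁.2 x₂ x₂.2).symm
  have e1 : (v₁ : G) * (v₂ : G) * ((x₁ : G) * (x₂ : G)) =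
      ((v₁ : G) * (x₁ : G)) * ((v₂ : G) * (x₂ : G)) := by
    calc (v₁ : G) * (v₂ : G) * ((x₁ : G) * (x₂ : G)) = v₁ * (v₂ * x₁) * x₂ := by group
      _ = v₁ * (x₁ * v₂) * x₂ := by rw [c12]
      _ = _ := by group
  have e2 : (x₁ : G) * (x₂ : G) * ((v₁ : G) * (v₂ : G)) =
      ((x₁ : G) * (v₁ : G)) * ((x₂ : G) * (v₂ : G)) := by
    calc (x₁ : G) * (x₂ : G) * ((v₁ : G) * (v₂ : G)) = x₁ * (x₂ * v₁) * v₂ := by group
      _ = x₁ * (v₁ * x₂) * v₂ := by rw [c21]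
      _ = _ := by group
  rw [e1, e2]
  constructor
  · intro h
    -- z := (x₁ v₁)⁻¹ (v₁ x₁) = (x₂ v₂) (v₂ x₂)⁻¹ lies in U₁ ⊓ U₂
    set z : G := ((x₁ : G) * (v₁ : G))⁻¹ * ((v₁ : G) * (x₁ : G)) with hz
    have hz2 : z = ((x₂ : G) * (v₂ : G)) * ((v₂ : G) * (x₂ : G))⁻¹ := by
      rw [hz]
      have : ((x₁ : G) * (v₁ : G))⁻¹ * (((v₁ : G) * (x₁ : G)) * ((v₂ : G) * (x₂ : G))) *
          ((v₂ : G) * (x₂ : G))⁻¹ = ((x₁ : G) * (v₁ : G))⁻¹ * (((x₁ : G) * (v₁ : G)) *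
          ((x₂ : G) * (v₂ : G))) * ((v₂ : G) * (x₂ : G))⁻¹ := by rw [h]
      calc ((x₁ : G) * (v₁ : G))⁻¹ * ((v₁ : G) * (x₁ : G))
          = ((x₁ : G) * (v₁ : G))⁻¹ * (((v₁ : G) * (x₁ : G)) * ((v₂ : G) * (x₂ : G))) *
            ((v₂ : G) * (x₂ : G))⁻¹ := by group
        _ = ((x₁ : G) * (v₁ : G))⁻¹ * (((x₁ : G) * (v₁ : G)) *
            ((x₂ : G) * (v₂ : G))) * ((v₂ : G) * (x₂ : G))⁻¹ := this
        _ = _ := by group
    have hzU₁ : z ∈ U₁ := by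
      rw [hz]
      exact U₁.mul_mem (U₁.inv_mem (U₁.mul_mem x₁.2 v₁.2)) (U₁.mul_mem v₁.2 x₁.2)
    have hzU₂ : z ∈ U₂ := by
      rw [hz2]
      exact U₂.mul_mem (U₂.mul_mem x₂.2 v₂.2) (U₂.inv_mem (U₂.mul_mem v₂.2 x₂.2))
    have hzZ : z ∈ U₁ ⊓ U₂ := ⟨hzU₁, hzU₂⟩
    have hz1 : z = 1 := by
      classical
      letI : Fintype G := Fintype.ofFinite G
      by_contra hne
      have hne' : (⟨z, hzZ⟩ : ↥(U₁ ⊓ U₂))⁻¹ ≠ 1 := by
        intro h1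
        rw [inv_eq_one] at h1
        exact hne (congrArg Subtype.val h1)
      have hcz : Commute z (x₁ : G) := (hcomm x₁ x₁.2 z hzU₂).symm
      have hcz' : Commute z⁻¹ (x₁ : G) := hcz.inv_left
      have hdiv := dvd_orderOf_mul_of_pgroup (U₁ ⊓ U₂) hZ (⟨z, hzZ⟩ : ↥(U₁ ⊓ U₂))⁻¹ hne' (x₁ : G) h₁
        hcz'
      have hconj : z⁻¹ * (x₁ : G) = (v₁ : G)⁻¹ * (x₁ : G) * (v₁ : G) := by
        rw [hcz'.eq, hz]
        group
      have hord : orderOf ((v₁ : G)⁻¹ * (x₁ : G) * (v₁ : G)) = orderOf (x₁ : G) := by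
        have := (MulAut.conj (v₁ : G)⁻¹).orderOf_eq (x₁ : G)
        simpa [MulAut.conj_apply] using this
      have hdiv' : p ∣ orderOf (z⁻¹ * (x₁ : G)) := hdiv
      rw [hconj, hord] at hdiv'
      exact h₁ hdiv'
    have k1 : (v₁ : G) * (x₁ : G) = (x₁ : G) * (v₁ : G) := by
      have : ((x₁ : G) * (v₁ : G))⁻¹ * ((v₁ : G) * (x₁ : G)) = 1 := by rw [← hz, hz1]
      exact (inv_mul_eq_one.mp this).symm
    have k2 : (v₂ : G) * (x₂ : G) = (x₂ : G) * (v₂ : G) := by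
      have : ((x₂ : G) * (v₂ : G)) * ((v₂ : G) * (x₂ : G))⁻¹ = 1 := by rw [← hz2, hz1]
      exact (mul_inv_eq_one.mp this).symm
    exact ⟨Subtype.ext k1, Subtype.ext k2⟩
  · rintro ⟨k1, k2⟩
    have k1' : (v₁ : G) * (x₁ : G) = (x₁ : G) * (v₁ : G) := congrArg Subtype.val k1
    have k2' : (v₂ : G) * (x₂ : G) = (x₂ : G) * (v₂ : G) := congrArg Subtype.val k2
    rw [k1', k2']

end

section Block

variable {G : Type*} [Group G] [Fintype G] {M : Ideal Cfsg.AlgInt} {p : ℕ} [Fact p.Prime]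

/-- central characters in a central product, at products of `p`-regular elements -/
theorem centralChar_cprod (U₁ U₂ : Subgroup G)
    (hcomm : ∀ u ∈ U₁, ∀ v ∈ U₂, u * v = v * u) (hgen : U₁ ⊔ U₂ = ⊤)
    (hZ : IsPGroup p ↥(U₁ ⊓ U₂)) (χ : G → ℂ) (φ₁ : U₁ → ℂ) (φ₂ : U₂ → ℂ)
    (hspec : ∀ (x : U₁) (c : U₂), χ ((x : G) * (c : G)) = φ₁ x * φ₂ c)
    (x₁ : U₁) (x₂ : U₂) (h₁ : ¬ p ∣ orderOf (x₁ : G)) (h₂ : ¬ p ∣ orderOf (x₂ : G)) :
    Cfsg.centralChar χ ((x₁ : G) * (x₂ : G)) = Cfsg.centralChar φ₁ x₁ * Cfsg.centralChar φ₂ x₂ := by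
  unfold Cfsg.centralChar
  rw [index_centralizer_cprod U₁ U₂ hcomm hgen hZ x₁ x₂ h₁ h₂, hspec x₁ x₂]
  have h1 : χ 1 = φ₁ 1 * φ₂ 1 := by
    have := hspec 1 1
    simpa using this
  rw [h1]
  push_cast
  by_cases ha : φ₁ 1 = 0
  · simp [ha]
  by_cases hb : φ₂ 1 = 0
  · simp [hb]
  field_simp

end Block

end Cfsg.Agent.Lib.Helper79
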