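import Mathlib
import Cfsg.Prelude.Def_Blocks
import Cfsg.Agent.Lib.Helper78.BlockOrth

/-!
# The power map that cubes `2`-elements and fixes elements of odd order
-/

set_option autoImplicit false

namespace Cfsg.Agent.Lib.Helper79

theorem two_pow_dvd_three_pow_sub_one (m : ℕ) : (2 : ℤ) ^ (m + 1) ∣ 3 ^ (2 ^ m) - 1 := by
  induction m with
  | zero => norm_num
  | succ m ih =>
    have e : (3 : ℤ) ^ (2 ^ (m + 1)) - 1 = (3 ^ (2 ^ m) - 1) * (3 ^ (2 ^ m) + 1) := by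
      rw [pow_succ 2 m, pow_mul]; ring
    rw [e, pow_succ]
    apply mul_dvd_mul ih
    have h2 : (2 : ℤ) ∣ 3 ^ (2 ^ m) - 1 := dvd_trans (dvd_pow_self 2 (Nat.succ_ne_zero m)) ih
    have e2 : (3 : ℤ) ^ (2 ^ m) + 1 = (3 ^ (2 ^ m) - 1) + 2 := by ring
    rw [e2]
    exact dvd_add h2 (dvd_refl 2)

section

variable {G : Type*} [Group G] [Finite G]

/-- An exponent cubing the `2`-elements and fixing the elements of odd order is prime to the
group order. -/
theorem coprime_of_cube_twist (k : ℕ)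
    (hk₁ : ∀ g : G, (∃ j : ℕ, orderOf g = 2 ^ j) → g ^ k = g ^ 3)
    (hk₂ : ∀ g : G, Odd (orderOf g) → g ^ k = g) : Nat.Coprime k (Nat.card G) := by
  apply Nat.coprime_of_dvd
  intro q hq hqk hqG
  haveI : Fact q.Prime := ⟨hq⟩
  obtain ⟨g, hg⟩ := exists_prime_orderOf_dvd_card' q hqG
  have hgk : g ^ k = 1 := by
    obtain ⟨c, rfl⟩ := hqk
    rw [pow_mul, ← hg, pow_orderOf_eq_one, one_pow]
  have hg1 : g ≠ 1 := by
    intro h
    rw [h, orderOf_one] at hg
    exact hq.one_lt.ne hg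
  rcases hq.eq_two_or_odd' with h2 | hodd
  · have h3 := hk₁ g ⟨1, by rw [hg, h2, pow_one]⟩
    rw [hgk] at h3
    have e : g ^ 2 = 1 := by rw [← h2, ← hg]; exact pow_orderOf_eq_one g
    have e3 : g ^ 3 = g := by rw [pow_succ, e, one_mul]
    rw [e3] at h3
    exact hg1 h3.symm
  · have h3 := hk₂ g (hg ▸ hodd)
    rw [hgk] at h3
    exact hg1 h3.symm

/-- The power map cubing the `2`-elements and fixing the elements of odd order has `2`-power
order. -/
theorem pow_iter_of_cube_twist (k : ℕ)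
    (hk₁ : ∀ g : G, (∃ j : ℕ, orderOf g = 2 ^ j) → g ^ k = g ^ 3)
    (hk₂ : ∀ g : G, Odd (orderOf g) → g ^ k = g) (g : G) :
    g ^ (k ^ (2 ^ Nat.card G)) = g := by
  obtain ⟨x, y, hxy, hcomm, ⟨j, hj⟩, hy⟩ :=
    Cfsg.Agent.Lib.Helper78.exists_isPPart Nat.prime_two g
  have hyodd : Odd (orderOf y) := Nat.odd_iff.mpr (Nat.two_dvd_ne_zero.mp hy)
  have hxk := hk₁ x ⟨j, hj⟩
  have hyk := hk₂ y hyodd
  have key : ∀ i : ℕ, g ^ (k ^ i) = x ^ (3 ^ i) * y := by
    intro i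
    induction i with
    | zero => simp [hxy]
    | succ i ih =>
      rw [pow_succ, pow_mul, ih, (hcomm.pow_left _).mul_pow, ← pow_mul, mul_comm (3 ^ i) k,
        pow_mul, hxk, ← pow_mul, ← pow_succ', hyk]
  rw [key]
  have hx : x ^ (3 ^ (2 ^ Nat.card G)) = x := by
    have hle : orderOf x ≤ Nat.card G := Nat.le_of_dvd Nat.card_pos (orderOf_dvd_natCard x)
    have hjlt : j < Nat.card G := by
      have h1 : 2 ^ j < 2 ^ Nat.card G := by
        rw [← hj]
        exact lt_of_le_of_lt hle Nat.lt_two_pow_self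
      exact (Nat.pow_lt_pow_iff_right (by norm_num)).mp h1
    have hdvd : ((orderOf x : ℕ) : ℤ) ∣ ((3 ^ (2 ^ Nat.card G) : ℕ) : ℤ) - ((1 : ℕ) : ℤ) := by
      rw [hj]
      push_cast
      exact dvd_trans (pow_dvd_pow 2 (by omega)) (two_pow_dvd_three_pow_sub_one _)
    have hmod : 1 ≡ 3 ^ (2 ^ Nat.card G) [MOD orderOf x] := (Nat.modEq_iff_dvd).mpr hdvd
    have := (pow_eq_pow_iff_modEq (x := x)).mpr hmod
    rw [pow_one] at this
    exact this.symm
  rw [hx, hxy]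

end

end Cfsg.Agent.Lib.Helper79
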