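import Cfsg.Agent.Lib.Helper79.ClassMult

set_option autoImplicit false

namespace Cfsg.Agent.Lib.Helper79

/-- Modulo `2`, the square of a sum of algebraic integers is the sum of the squares. -/
theorem sq_sum_eq_sum_sq_add_two_mul {ι : Type*} (s : Finset ι) (a : ι → ℂ)
    (ha : ∀ i, IsIntegral ℤ (a i)) :
    ∃ γ : ℂ, IsIntegral ℤ γ ∧ (∑ i ∈ s, a i) ^ 2 = ∑ i ∈ s, (a i) ^ 2 + 2 * γ := by
  classical
  induction s using Finset.induction_on with
  | empty => exact ⟨0, isIntegral_zero, by simp⟩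
  | insert i s hi ih =>
    obtain ⟨γ, hγ, h⟩ := ih
    refine ⟨γ + a i * ∑ j ∈ s, a j,
      hγ.add ((ha i).mul (IsIntegral.sum _ (fun j _ => ha j))), ?_⟩
    rw [Finset.sum_insert hi, Finset.sum_insert hi, add_sq, h]
    ring

/-- If all irreducible characters of `G` have odd degree, then every nontrivial real element
has a centralizer of even order. -/
theorem even_centralizer_of_real_of_odd_degrees {G : Type*} [Group G] [Finite G] (w : G)
    (hw1 : w ≠ 1) (hreal : IsConj w w⁻¹)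
    (hodd : ∀ χ : Cfsg.IrrCharacter G, Odd (Cfsg.charDegree (χ : G → ℂ))) :
    Even (Nat.card (Subgroup.centralizer ({w} : Set G))) := by
  classical
  let _ : Fintype G := Fintype.ofFinite G
  let _ : Fintype (Cfsg.IrrCharacter G) := Fintype.ofFinite _
  have h1 : ∑ χ : Cfsg.IrrCharacter G, ((χ : G → ℂ) w) ^ 2 =
      (Nat.card (Subgroup.centralizer ({w} : Set G)) : ℂ) := by
    rw [← irr_sum_mul_inv_of_isConj (IsConj.refl w)]
    refine Finset.sum_congr rfl (fun χ _ => ?_)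
    rw [← irr_eq_of_isConj χ.2 hreal, pow_two]
  have h2 : ∑ χ : Cfsg.IrrCharacter G, (χ : G → ℂ) w * (χ : G → ℂ) 1 = 0 := by
    have := irr_sum_mul_inv_of_not_isConj (g := w) (h := 1)
      (fun hc => hw1 (isConj_one_left.mp hc))
    rw [inv_one] at this
    exact this
  have hm : ∀ χ : Cfsg.IrrCharacter G, ∃ m : ℕ, (χ : G → ℂ) 1 = 2 * (m : ℂ) + 1 := by
    intro χ
    obtain ⟨m, hm⟩ := hodd χ
    obtain ⟨h1, -, -⟩ := irr_charDegree χ.2
    exact ⟨m, by rw [h1, hm]; push_cast; ring⟩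
  choose m hm using hm
  obtain ⟨δ, hδ⟩ : ∃ δ : ℂ, δ = ∑ χ : Cfsg.IrrCharacter G, (m χ : ℂ) * (χ : G → ℂ) w :=
    ⟨_, rfl⟩
  have hδint : IsIntegral ℤ δ := by
    rw [hδ]
    exact IsIntegral.sum _ (fun χ _ => (isIntegral_natCast (m χ)).mul (irr_isIntegral χ.2 w))
  have hsum : ∑ χ : Cfsg.IrrCharacter G, (χ : G → ℂ) w = -(2 * δ) := by
    have h3 : ∑ χ : Cfsg.IrrCharacter G, (χ : G → ℂ) w * (χ : G → ℂ) 1 =
        2 * δ + ∑ χ : Cfsg.IrrCharacter G, (χ : G → ℂ) w := by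
      rw [hδ, Finset.mul_sum, ← Finset.sum_add_distrib]
      refine Finset.sum_congr rfl (fun χ _ => ?_)
      rw [hm χ]
      ring
    rw [h2] at h3
    linear_combination -h3
  obtain ⟨γ, hγ, hsq⟩ := sq_sum_eq_sum_sq_add_two_mul Finset.univ
    (fun χ : Cfsg.IrrCharacter G => (χ : G → ℂ) w) (fun χ => irr_isIntegral χ.2 w)
  rw [h1, hsum] at hsq
  have hkey : (Nat.card (Subgroup.centralizer ({w} : Set G)) : ℂ) =
      ((2 : ℕ) : ℂ) * (2 * δ ^ 2 - γ) := by
    push_cast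
    linear_combination -hsq
  have hint : IsIntegral ℤ (2 * δ ^ 2 - γ) :=
    (((isIntegral_natCast 2).mul (hδint.pow 2)).sub hγ)
  exact even_iff_two_dvd.mpr (nat_dvd_of_eq_mul_isIntegral _ 2 two_ne_zero _ hint hkey)

end Cfsg.Agent.Lib.Helper79
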