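import Mathlib
import Cfsg.Prelude.Def_Blocks
import Cfsg.Prelude.Def_Transfer
import Cfsg.Agent.Lib.Helper79.QuotBlock
import Cfsg.Agent.Lib.Helper79.ClassMult
import Cfsg.Agent.Lib.Helper54.Frobenius
import Cfsg.Agent.Lib.Helper80.CharKer
import Cfsg.Agent.Lib.Helper77.Defect

/-!
# The principal block of a `p`-nilpotent group
-/

set_option autoImplicit false

namespace Cfsg.Agent.Lib.Helper79

open Cfsg

/-- In a group with a normal `p`-complement `K`, every member of the principal block has `K`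
in its kernel. -/
theorem ker_of_mem_principalBlock_of_pNilpotent {G : Type*} [Group G] [Finite G] (p : ℕ)
    [Fact p.Prime] (M : Ideal Cfsg.AlgInt) (hM : Cfsg.IsPModular p M)
    (K : Subgroup G) (hK : Cfsg.Agent.Lib.Helper54.IsNormalPComplement p K)
    (χ : Cfsg.IrrCharacter G) (hχ : χ ∈ Cfsg.principalBlock M G) :
    ∀ n ∈ K, (χ : G → ℂ) n = (χ : G → ℂ) 1 := by
  classical
  let _ : Fintype G := Fintype.ofFinite G
  have hp : p.Prime := Fact.out
  have hKn : K.Normal := hK.1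
  have hpK : ¬ p ∣ Nat.card K := by
    intro hd
    exact hp.ne_one (Nat.Coprime.eq_one_of_dvd hK.2.1.symm hd)
  have hs : Cfsg.SameBlock M (Cfsg.Agent.Lib.Helper77.trivIrr G : G → ℂ) (χ : G → ℂ) := hχ
  exact ker_of_sameBlock_of_coprime K hM hpK hs (fun n _ => rfl)

/-- In a group with a normal `p`-complement, the characters of degree prime to `p` in the
principal block are linear. -/
theorem charDegree_eq_one_of_hasNormalPComplement {G : Type*} [Group G] [Finite G] (p : ℕ)
    [Fact p.Prime] (M : Ideal Cfsg.AlgInt) (hM : Cfsg.IsPModular p M)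
    (h : Cfsg.HasNormalPComplement p G) (χ : Cfsg.IrrCharacter G)
    (hχ : χ ∈ Cfsg.principalBlock M G) (hnd : ¬ p ∣ Cfsg.charDegree (χ : G → ℂ)) :
    Cfsg.charDegree (χ : G → ℂ) = 1 := by
  classical
  have hp : p.Prime := Fact.out
  obtain ⟨K, hK⟩ := Cfsg.Agent.Lib.Helper54.hasNormalPComplement_iff.mp h
  have hKn : K.Normal := hK.1
  have hker := ker_of_mem_principalBlock_of_pNilpotent p M hM K hK χ hχ
  obtain ⟨ψ, hψ, hψχ⟩ := Cfsg.Agent.Lib.Helper80.exists_isIrrCharacter_deflate K χ.2 hker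
  obtain ⟨h1, hpos, hdvd⟩ := irr_charDegree hψ
  obtain ⟨h1', -, -⟩ := irr_charDegree χ.2
  have hdeg : Cfsg.charDegree ψ = Cfsg.charDegree (χ : G → ℂ) := by
    have e := hψχ 1
    rw [QuotientGroup.mk_one, h1, h1'] at e
    exact_mod_cast e
  obtain ⟨k, hk⟩ := hK.2.2
  rw [← Subgroup.index_eq_card, hk, hdeg] at hdvd
  obtain ⟨j, -, hj⟩ := (Nat.dvd_prime_pow hp).mp hdvd
  rcases Nat.eq_zero_or_pos j with h0 | hjpos
  · rw [hj, h0, pow_zero]
  · exfalso
    apply hnd
    rw [hj]
    exact dvd_pow_self p hjpos.ne'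

end Cfsg.Agent.Lib.Helper79
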