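import Mathlib
import Cfsg.Prelude.Def_Blocks
import Cfsg.Prelude.Def_Transfer
import Cfsg.Agent.Lib.Helper79.IsaacsSmithTw
import Cfsg.Agent.Lib.Helper75.CoprimeDeg
import Cfsg.Agent.Lib.Helper81.GallRel
import Cfsg.Agent.Lib.Helper47.PIrr
import Cfsg.Agent.Lib.Helper84.Hyperfocal
import Cfsg.Agent.Lib.Helper16.Cover
import Cfsg.Agent.Lib.Helper15.LinIrr
import Cfsg.Agent.Lib.Helper80.PrimeCodeg
import Cfsg.Agent.S0862

/-!
# Galois-fixed characters of degree prime to `p` in the principal block, over `O^p(G)`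

Let `N` be a normal subgroup containing all `p`-regular elements, with `G ⧸ N` cyclic and
nontrivial and without nontrivial homomorphisms of `p`-power exponent to `ℂˣ`.  The irreducible
characters of degree prime to `p` in the principal block of `G` fixed by a suitable power map
are the twists of the fixed canonical extensions of the invariant such characters of `N` by the
linear characters of `G ⧸ N` of order dividing `p`.
-/

set_option autoImplicit false

namespace Cfsg.Agent.Lib.Helper79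

open Cfsg Cfsg.Agent.Lib.Helper16

open scoped ComplexConjugate Pointwise

universe u

section Basic

variable {G : Type u} [Group G] [Finite G] {p : ℕ} [Fact p.Prime]

omit [Finite G] in
/-- Homomorphisms of `p`-power exponent from `O^p(G)` to `ℂˣ` are trivial. -/
theorem hom_eq_one_of_pow_pResidual (f : ↥(Cfsg.pResidual p G) →* ℂˣ) (k : ℕ)
    (hf : ∀ n, f n ^ (p ^ k) = 1) : ∀ n, f n = 1 := by
  have hp : p.Prime := Fact.out
  have htop := Cfsg.Agent.Lib.Helper84.pResidual_pResidual_eq_top (G := G) p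
  have hle : Cfsg.pResidual p ↥(Cfsg.pResidual p G) ≤ f.ker := by
    show Subgroup.closure {g : ↥(Cfsg.pResidual p G) | Nat.Coprime (orderOf g) p} ≤ f.ker
    rw [Subgroup.closure_le]
    intro n hn
    rw [SetLike.mem_coe, MonoidHom.mem_ker]
    have h1 : f n ^ orderOf n = 1 := by rw [← map_pow, pow_orderOf_eq_one, map_one]
    have h3 : orderOf (f n) ∣ orderOf n := orderOf_dvd_of_pow_eq_one h1
    have h4 : orderOf (f n) ∣ p ^ k := orderOf_dvd_of_pow_eq_one (hf n)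
    have hcop : Nat.Coprime (orderOf n) (p ^ k) := Nat.Coprime.pow_right k hn
    exact orderOf_eq_one_iff.mp (Nat.eq_one_of_dvd_coprimes hcop h3 h4)
  intro n
  have : n ∈ f.ker := hle (htop ▸ Subgroup.mem_top n)
  exact MonoidHom.mem_ker.mp this

/-- A power map acting as `1 + p` on `p`-elements and trivially on `p`-regular elements has
exponent prime to the group order. -/
theorem coprime_of_pow_conditions {k : ℕ}
    (hk₁ : ∀ g : G, (∃ j : ℕ, orderOf g = p ^ j) → g ^ k = g ^ (1 + p))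
    (hk₂ : ∀ g : G, Nat.Coprime (orderOf g) p → g ^ k = g) : Nat.Coprime k (Nat.card G) := by
  have hp : p.Prime := Fact.out
  apply Nat.coprime_of_dvd
  intro q hq hqk hqG
  have : Fact q.Prime := ⟨hq⟩
  obtain ⟨g, hg⟩ := exists_prime_orderOf_dvd_card' q hqG
  have hgk : g ^ k = 1 := by
    rw [← orderOf_dvd_iff_pow_eq_one, hg]; exact hqk
  have hg1 : g = 1 := by
    by_cases hqp : q = p
    · have h1 := hk₁ g ⟨1, by rw [hg, hqp, pow_one]⟩
      rw [hgk, pow_add, pow_one] at h1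
      have h2 : g ^ p = 1 := by rw [← hqp, ← hg]; exact pow_orderOf_eq_one g
      rw [h2, mul_one] at h1
      exact h1.symm
    · have h1 := hk₂ g (by rw [hg]; exact (Nat.coprime_primes hq hp).mpr hqp)
      rw [hgk] at h1
      exact h1.symm
  rw [hg1, orderOf_one] at hg
  exact hq.one_lt.ne' hg.symm

/-- The number of homomorphisms of exponent `p` from a cyclic group of order `p ^ m`, `m ≠ 0`,
to `ℂˣ` is `p`. -/
theorem card_hom_pow_eq_one {Q : Type*} [Group Q] [hQ : IsCyclic Q] {m : ℕ}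
    (hm : m ≠ 0) (hcard : Nat.card Q = p ^ m) :
    Nat.card {f : Q →* ℂˣ // ∀ q, f q ^ p = 1} = p := by
  obtain ⟨c, hc⟩ := IsCyclic.exists_generator (α := Q)
  have hord : orderOf c = p ^ m := by rw [orderOf_eq_card_of_forall_mem_zpowers hc, hcard]
  have hp : p.Prime := Fact.out
  have : NeZero p := ⟨hp.ne_zero⟩
  refine (Nat.card_congr ?_).trans (Complex.card_rootsOfUnity p)
  refine Equiv.ofBijective (fun f => ⟨f.1 c, (mem_rootsOfUnity _ _).mpr (f.2 c)⟩) ⟨?_, ?_⟩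
  · intro f f' h
    apply Subtype.ext
    apply (MonoidHom.eq_iff_eq_on_generator hc _ _).mpr
    exact congrArg Subtype.val h
  · intro ζ
    have h1 : (ζ : ℂˣ) ^ p = 1 := (mem_rootsOfUnity _ _).mp ζ.2
    have hζ : orderOf (ζ : ℂˣ) ∣ orderOf c := by
      rw [hord]
      exact dvd_trans (orderOf_dvd_of_pow_eq_one h1) (dvd_pow_self p hm)
    refine ⟨⟨monoidHomOfForallMemZpowers hc hζ, ?_⟩, ?_⟩
    · intro q
      obtain ⟨i, rfl⟩ := Subgroup.mem_zpowers_iff.mp (hc q)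
      rw [map_zpow, monoidHomOfForallMemZpowers_apply_gen, ← zpow_natCast, ← zpow_mul, mul_comm,
        zpow_mul, zpow_natCast, h1, one_zpow]
    · apply Subtype.ext
      exact monoidHomOfForallMemZpowers_apply_gen hc hζ

/-- An irreducible character of degree prime to `p` restricts irreducibly to a normal subgroup of
`p`-power index without nontrivial linear characters of `p`-power order. -/
theorem res_irr_of_ppow_index (K : Subgroup G) [hK : K.Normal] {m : ℕ} (hm : K.index = p ^ m)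
    (hhom : ∀ (f : K →* ℂˣ) (k : ℕ), (∀ n, f n ^ (p ^ k) = 1) → ∀ n, f n = 1)
    {χ : G → ℂ} (hχ : Cfsg.IsIrrCharacter G χ) (hdeg : ¬ p ∣ Cfsg.charDegree χ) :
    Cfsg.IsIrrCharacter K (fun n : K => χ n) := by
  classical
  have hp : p.Prime := Fact.out
  let _ : Fintype G := Fintype.ofFinite G
  let _ : Fintype K := Fintype.ofFinite K
  obtain ⟨θ, hθ, hne⟩ := Cfsg.Agent.Lib.Helper75.exists_constituent_res K hχ
  obtain ⟨e, he⟩ := Cfsg.Agent.Lib.Helper75.charDegree_eq_mul_of_over K hχ hθ hne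
  have hcf := Cfsg.Agent.Lib.Helper3.isClassFunction_of_isCharacter
    (Cfsg.Agent.Lib.Helper3.isCharacter_of_irr hθ)
  have h1 : (Cfsg.Agent.Lib.Helper75.inertia K θ).index ∣ p ^ m :=
    hm ▸ Subgroup.index_dvd_of_le (Cfsg.Agent.Lib.Helper75.le_inertia K hcf)
  have h2 : (Cfsg.Agent.Lib.Helper75.inertia K θ).index ∣ Cfsg.charDegree χ := by
    rw [he]
    exact Dvd.dvd.mul_right (Dvd.intro_left e rfl) _
  have h3 : (Cfsg.Agent.Lib.Helper75.inertia K θ).index = 1 := by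
    obtain ⟨j, -, hj⟩ := (Nat.dvd_prime_pow hp).mp h1
    rcases j with _ | j
    · simpa using hj
    · exfalso
      apply hdeg
      rw [hj] at h2
      exact dvd_trans (dvd_pow_self p (Nat.succ_ne_zero j)) h2
  have h4 : Cfsg.Agent.Lib.Helper75.inertia K θ = ⊤ := Subgroup.index_eq_one.1 h3
  have hinv : ∀ (g : G) (n : K), θ ⟨g * n * g⁻¹, hK.conj_mem n n.2 g⟩ = θ n := fun g =>
    (Cfsg.Agent.Lib.Helper75.mem_inertia_iff' K θ g).1 (h4 ▸ Subgroup.mem_top g)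
  have hdθ : ¬ p ∣ Cfsg.charDegree θ := by
    intro h
    apply hdeg
    rw [he]
    exact Dvd.dvd.mul_left h _
  obtain ⟨d, Y, hY, rfl⟩ := hθ
  haveI hY' : Y.IsIrreducible := hY
  have hinv' : ∀ (g : G) (n : K), Y.character (MulAut.conjNormal g n) = Y.character n :=
    fun g n => hinv g n
  have hd : Cfsg.charDegree Y.character = d := Cfsg.Agent.Lib.Helper80.charDegree_char Y
  have hc : Nat.Coprime K.index (Cfsg.detOrder Y.character * d) := by
    rw [hm]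
    apply Nat.Coprime.pow_left
    apply Nat.Coprime.mul_right
    · exact (Nat.Prime.coprime_iff_not_dvd hp).mpr (not_dvd_detOrder_of_hom hhom _)
    · rw [← hd]
      exact (Nat.Prime.coprime_iff_not_dvd hp).mpr hdθ
  obtain ⟨θh, ⟨hθh, hθhK, -⟩, -⟩ :=
    Cfsg.Agent.Lib.Helper75.exists_unique_extension_of_coprime K Y hinv' hc
  have hθhK' : (fun n : K => θh n) = Y.character := funext hθhK
  have hres : Cfsg.IsIrrCharacter K (fun n : K => θh n) := hθhK' ▸ ⟨d, Y, hY, rfl⟩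
  obtain ⟨β, hβ, hβK, hχβ⟩ := Cfsg.Agent.Lib.Helper75.gallagher_exists K hθh hres hχ
    (by rw [hθhK']; exact hne)
  obtain ⟨βbar, hβbar, hβeq⟩ := Cfsg.Agent.Lib.Helper80.exists_isIrrCharacter_deflate K hβ
    (fun x hx => hβK ⟨x, hx⟩)
  have hb1 : Cfsg.charDegree β ∣ p ^ m := by
    have h5 := Cfsg.Agent.Lib.Helper80.charDegree_dvd_card hβbar
    have h6 : Cfsg.charDegree βbar = Cfsg.charDegree β := by
      unfold Cfsg.charDegree
      have h7 : βbar 1 = β 1 := hβeq 1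
      rw [h7]
    rw [h6] at h5
    rw [← hm, Subgroup.index_eq_card]
    exact h5
  have hb2 : Cfsg.charDegree β ∣ Cfsg.charDegree χ := by
    have h5 := congrFun hχβ 1
    rw [Pi.mul_apply, Cfsg.Agent.Lib.Helper80.char_one_eq_charDegree
        (Cfsg.Agent.Lib.Helper3.isCharacter_of_irr hχ),
      Cfsg.Agent.Lib.Helper80.char_one_eq_charDegree
        (Cfsg.Agent.Lib.Helper3.isCharacter_of_irr hβ),
      Cfsg.Agent.Lib.Helper80.char_one_eq_charDegree
        (Cfsg.Agent.Lib.Helper3.isCharacter_of_irr hθh)] at h5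
    have h6 : Cfsg.charDegree χ = Cfsg.charDegree β * Cfsg.charDegree θh := by exact_mod_cast h5
    exact Dvd.intro _ h6.symm
  have hb3 : Cfsg.charDegree β = 1 := by
    obtain ⟨j, -, hj⟩ := (Nat.dvd_prime_pow hp).mp hb1
    rcases j with _ | j
    · simpa using hj
    · exfalso
      apply hdeg
      rw [hj] at hb2
      exact dvd_trans (dvd_pow_self p (Nat.succ_ne_zero j)) hb2
  have hβ1 : β 1 = 1 := by
    rw [Cfsg.Agent.Lib.Helper80.char_one_eq_charDegree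
      (Cfsg.Agent.Lib.Helper3.isCharacter_of_irr hβ), hb3]
    simp
  have hfin : (fun n : K => χ n) = Y.character := by
    funext n
    rw [hχβ]
    show β n * θh n = _
    rw [hβK n, hβ1, one_mul, hθhK n]
  rw [hfin]
  exact ⟨d, Y, hY, rfl⟩

end Basic

section Ext

variable {G : Type u} [Group G] [Fintype G] {p : ℕ} [Fact p.Prime] {M : Ideal Cfsg.AlgInt}

/-- An invariant character of degree prime to `p` in the principal block of `N`, fixed by the
power map `k`, has an extension in the principal block of `G` fixed by the power map `k`. -/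
theorem exists_fixed_extension (hM : Cfsg.IsPModular p M) (N : Subgroup G) [N.Normal]
    (hreg : ∀ g : G, ¬ p ∣ orderOf g → g ∈ N)
    (hhom : ∀ (f : N →* ℂˣ) (k : ℕ), (∀ n, f n ^ (p ^ k) = 1) → ∀ n, f n = 1)
    (k : ℕ) (hk : Nat.Coprime k (Nat.card G))
    (θ : Cfsg.IrrCharacter N) (hθ : θ ∈ Cfsg.principalBlock M N)
    (hdeg : ¬ p ∣ Cfsg.charDegree (θ : N → ℂ))
    (hinv : ∀ (g : G) (n : N), (θ : N → ℂ) (MulAut.conjNormal g n) = (θ : N → ℂ) n)
    (htw : ∀ n : N, (θ : N → ℂ) (n ^ k) = (θ : N → ℂ) n) :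
    ∃ χ : Cfsg.IrrCharacter G, χ ∈ Cfsg.principalBlock M G ∧
      (∀ n : N, (χ : G → ℂ) n = (θ : N → ℂ) n) ∧
      ∀ g : G, (χ : G → ℂ) (g ^ k) = (χ : G → ℂ) g := by
  classical
  have hp : p.Prime := Fact.out
  let _ : Fintype N := Fintype.ofFinite _
  obtain ⟨d, Y, hY, hYθ⟩ := θ.2
  haveI := hY
  obtain ⟨hθ1, hdpos, -⟩ := irr_charDegree θ.2
  have hd : d = Cfsg.charDegree (θ : N → ℂ) := by
    have h1 := Cfsg.Agent.Lib.Helper80.char_one_fin Y
    rw [hYθ, hθ1] at h1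
    exact_mod_cast h1.symm
  have hQ : IsPGroup p (G ⧸ N) := by
    apply Cfsg.Agent.Lib.Helper34.isPGroup_quotient_of_coprime_mem p N
    intro g hg
    exact hreg g ((Nat.Prime.coprime_iff_not_dvd hp).mp hg.symm)
  obtain ⟨e, he⟩ := IsPGroup.iff_card.mp hQ
  have hidx : N.index = p ^ e := by rw [Subgroup.index_eq_card]; exact he
  have hcop : Nat.Coprime N.index (Cfsg.detOrder Y.character * d) := by
    rw [hidx]
    apply Nat.Coprime.pow_left
    apply Nat.Coprime.mul_right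
    · exact (Nat.Prime.coprime_iff_not_dvd hp).mpr (not_dvd_detOrder_of_hom hhom _)
    · rw [hd]; exact (Nat.Prime.coprime_iff_not_dvd hp).mpr hdeg
  obtain ⟨χ, ⟨hχirr, hχN, hdet⟩, huniq⟩ :=
    Cfsg.Agent.Lib.Helper75.exists_unique_extension_of_coprime N Y
      (by rw [hYθ]; exact hinv) hcop
  obtain ⟨σ, hσ⟩ := Cfsg.Agent.Lib.Helper75.exists_galois_pow (G := G) k hk
  have hχc := Cfsg.Agent.Lib.Helper3.isCharacter_of_irr hχirr
  have hχ' : (fun g => σ (χ g)) = χ := by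
    apply huniq _ (Cfsg.Agent.Lib.Helper75.isIrrCharacter_galois σ hχirr)
    · intro n
      show σ (χ n) = _
      rw [hσ χ hχc, ← SubgroupClass.coe_pow, hχN, hYθ, htw]
    · rw [detOrder_galois σ hχc, hdet]
      exact Nat.Coprime.coprime_mul_right_right hcop
  have hfix : ∀ g : G, χ (g ^ k) = χ g := by
    intro g
    rw [← hσ χ hχc g]
    exact congrFun hχ' g
  have hres : (fun n : N => χ n) = (θ : N → ℂ) := by
    funext n; rw [hχN, hYθ]
  have hcon : Cfsg.classInner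
      (fun n : N => ((⟨χ, hχirr⟩ : Cfsg.IrrCharacter G) : G → ℂ) n) (θ : N → ℂ) ≠ 0 := by
    show Cfsg.classInner (fun n : N => χ n) _ ≠ 0
    rw [hres, Cfsg.Agent.Lib.Helper3.classInner_irr_self θ.2]
    exact one_ne_zero
  have hχB := mem_principalBlock_of_over hM N hreg ⟨χ, hχirr⟩ θ hθ hcon
  exact ⟨⟨χ, hχirr⟩, hχB, fun n => congrFun hres n, hfix⟩

end Ext

section Twist

variable {G : Type u} [Group G] [Finite G] (N : Subgroup G) [hN : N.Normal]

/-- The twist of an irreducible character by a linear character of `G ⧸ N`. -/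
noncomputable def twistIrr (f : (G ⧸ N) →* ℂˣ) (χ : Cfsg.IrrCharacter G) : Cfsg.IrrCharacter G :=
  ⟨fun g => ((f (g : G ⧸ N) : ℂˣ) : ℂ) * (χ : G → ℂ) g,
    Cfsg.Agent.Lib.Helper15.isIrrCharacter_lin_mul
      (Cfsg.Agent.Lib.Helper15.isCharacter_of_hom (f.comp (QuotientGroup.mk' N)))
      (by simp) χ.2⟩

theorem twistIrr_apply (f : (G ⧸ N) →* ℂˣ) (χ : Cfsg.IrrCharacter G) (g : G) :
    (twistIrr N f χ : G → ℂ) g = ((f (g : G ⧸ N) : ℂˣ) : ℂ) * (χ : G → ℂ) g := rfl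

theorem twistIrr_res (f : (G ⧸ N) →* ℂˣ) (χ : Cfsg.IrrCharacter G) (n : N) :
    (twistIrr N f χ : G → ℂ) n = (χ : G → ℂ) n := by
  rw [twistIrr_apply, (QuotientGroup.eq_one_iff (n : G)).mpr n.2, map_one, Units.val_one, one_mul]

theorem twistIrr_injective (χ : Cfsg.IrrCharacter G)
    (hχN : Cfsg.IsIrrCharacter N (fun n : N => (χ : G → ℂ) n)) {f f' : (G ⧸ N) →* ℂˣ}
    (h : twistIrr N f χ = twistIrr N f' χ) : f = f' := by
  classical
  let _ : Fintype G := Fintype.ofFinite G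
  let _ : Fintype N := Fintype.ofFinite N
  have hbij := Cfsg.Agent.Lib.Helper81.gallagher_bij N χ.2 hχN
  have hmem : ∀ f : (G ⧸ N) →* ℂˣ, (fun g : G => ((f (g : G ⧸ N) : ℂˣ) : ℂ)) ∈
      {β : G → ℂ | Cfsg.IsIrrCharacter G β ∧ ∀ n : N, β n = β 1} := by
    intro f
    refine ⟨Cfsg.Agent.Lib.Helper80.isIrrCharacter_of_hom (f.comp (QuotientGroup.mk' N)),
      fun n => ?_⟩
    show ((f ((n : G) : G ⧸ N) : ℂˣ) : ℂ) = ((f ((1 : G) : G ⧸ N) : ℂˣ) : ℂ)
    rw [(QuotientGroup.eq_one_iff (n : G)).mpr n.2, QuotientGroup.mk_one]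
  have h1 := hbij.injOn (hmem f) (hmem f') (congrArg Subtype.val h)
  apply MonoidHom.ext
  intro q
  obtain ⟨g, rfl⟩ := QuotientGroup.mk_surjective q
  exact Units.ext (congrFun h1 g)

theorem exists_twist (χ χ' : Cfsg.IrrCharacter G)
    (hχN : Cfsg.IsIrrCharacter N (fun n : N => (χ : G → ℂ) n))
    (hres : ∀ n : N, (χ' : G → ℂ) n = (χ : G → ℂ) n) :
    ∃ f : (G ⧸ N) →* ℂˣ, χ' = twistIrr N f χ := by
  obtain ⟨β, hβ, hβ1, hβN, hβχ⟩ :=
    Cfsg.Agent.S0862.gallagher_ext N (χ : G → ℂ) χ.2 hχN (χ' : G → ℂ) χ'.2 hres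
  have hker : N ≤ (Cfsg.Agent.Lib.Helper15.linCharHom hβ hβ1).ker := by
    intro n hn
    rw [MonoidHom.mem_ker]
    apply Units.ext
    rw [Cfsg.Agent.Lib.Helper15.linCharHom_apply, Units.val_one]
    exact hβN ⟨n, hn⟩
  refine ⟨QuotientGroup.lift N (Cfsg.Agent.Lib.Helper15.linCharHom hβ hβ1) hker, ?_⟩
  apply Subtype.ext
  funext g
  rw [twistIrr_apply, hβχ]
  rfl

end Twist

section Count

variable {G : Type u} [Group G] [Finite G] {p : ℕ} [Fact p.Prime] {M : Ideal Cfsg.AlgInt}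

/-- The counting theorem: the fixed characters of degree prime to `p` in the principal block of
`G` are `p` times as many as the invariant fixed ones of `N`. -/
theorem card_fixed_ppow (hM : Cfsg.IsPModular p M) (P : Sylow p G)
    (N : Subgroup G) [hN : N.Normal]
    (hreg : ∀ g : G, ¬ p ∣ orderOf g → g ∈ N)
    (hhom : ∀ (f : N →* ℂˣ) (k : ℕ), (∀ n, f n ^ (p ^ k) = 1) → ∀ n, f n = 1)
    (hsup : N ⊔ (P : Subgroup G) = ⊤)
    (hcyc : IsCyclic (G ⧸ N)) {m : ℕ} (hm : m ≠ 0) (hidx : N.index = p ^ m)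
    (k : ℕ) (hk : Nat.Coprime k (Nat.card G))
    (hk₁ : ∀ g : G, (∃ j : ℕ, orderOf g = p ^ j) → g ^ k = g ^ (1 + p))
    (hkp : k ≡ 1 [MOD p]) :
    Nat.card {χ : Cfsg.IrrCharacter G // χ ∈ Cfsg.principalBlock M G ∧
        ¬ p ∣ Cfsg.charDegree (χ : G → ℂ) ∧ ∀ g : G, (χ : G → ℂ) (g ^ k) = (χ : G → ℂ) g} =
      p * Nat.card {θ : Cfsg.IrrCharacter ↥N // θ ∈ Cfsg.principalBlock M ↥N ∧
        ¬ p ∣ Cfsg.charDegree (θ : ↥N → ℂ) ∧
        (∀ x ∈ (P : Subgroup G), ∀ n : ↥N,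
          (θ : ↥N → ℂ) ⟨x * n * x⁻¹, hN.conj_mem n n.2 x⟩ = (θ : ↥N → ℂ) n) ∧
        ∀ n : ↥N, (θ : ↥N → ℂ) (n ^ k) = (θ : ↥N → ℂ) n} := by
  classical
  let _ : Fintype G := Fintype.ofFinite G
  let _ : Fintype N := Fintype.ofFinite _
  have hp : p.Prime := Fact.out
  have hMp := isPrime_of_isPModular hM
  have hGinv : ∀ θ : Cfsg.IrrCharacter N,
      (∀ x ∈ (P : Subgroup G), ∀ n : N,
        (θ : N → ℂ) ⟨x * n * x⁻¹, hN.conj_mem n n.2 x⟩ = (θ : N → ℂ) n) →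
      ∀ (g : G) (n : N), (θ : N → ℂ) (MulAut.conjNormal g n) = (θ : N → ℂ) n := by
    intro θ hθP
    have hcf := Cfsg.Agent.Lib.Helper3.isClassFunction_of_isCharacter
      (Cfsg.Agent.Lib.Helper3.isCharacter_of_irr θ.2)
    have h1 : N ≤ Cfsg.Agent.Lib.Helper75.inertia N (θ : N → ℂ) :=
      Cfsg.Agent.Lib.Helper75.le_inertia N hcf
    have h2 : (P : Subgroup G) ≤ Cfsg.Agent.Lib.Helper75.inertia N (θ : N → ℂ) := fun x hx =>
      (Cfsg.Agent.Lib.Helper75.mem_inertia_iff' N _ x).mpr (hθP x hx)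
    have h3 : Cfsg.Agent.Lib.Helper75.inertia N (θ : N → ℂ) = ⊤ := by
      rw [eq_top_iff, ← hsup]
      exact sup_le h1 h2
    intro g n
    exact (Cfsg.Agent.Lib.Helper75.mem_inertia_iff' N (θ : N → ℂ) g).mp
      (h3 ▸ Subgroup.mem_top g) n
  have hext : ∀ θ : {θ : Cfsg.IrrCharacter ↥N // θ ∈ Cfsg.principalBlock M ↥N ∧
        ¬ p ∣ Cfsg.charDegree (θ : ↥N → ℂ) ∧
        (∀ x ∈ (P : Subgroup G), ∀ n : ↥N,
          (θ : ↥N → ℂ) ⟨x * n * x⁻¹, hN.conj_mem n n.2 x⟩ = (θ : ↥N → ℂ) n) ∧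
        ∀ n : ↥N, (θ : ↥N → ℂ) (n ^ k) = (θ : ↥N → ℂ) n},
      ∃ χ : Cfsg.IrrCharacter G, χ ∈ Cfsg.principalBlock M G ∧
        (∀ n : N, (χ : G → ℂ) n = (θ.1 : N → ℂ) n) ∧
        ∀ g : G, (χ : G → ℂ) (g ^ k) = (χ : G → ℂ) g := fun θ =>
    exists_fixed_extension hM N hreg hhom k hk θ.1 θ.2.1 θ.2.2.1 (hGinv θ.1 θ.2.2.2.1) θ.2.2.2.2
  choose ext hextB hextN hextk using hext
  have hextirr : ∀ θ, Cfsg.IsIrrCharacter N (fun n : N => (ext θ : G → ℂ) n) := by
    intro θ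
    have : (fun n : N => (ext θ : G → ℂ) n) = (θ.1 : N → ℂ) := funext (hextN θ)
    rw [this]
    exact θ.1.2
  have hcardΛ : Nat.card {f : (G ⧸ N) →* ℂˣ // ∀ q, f q ^ p = 1} = p :=
    card_hom_pow_eq_one hm (by rw [← hidx, Subgroup.index_eq_card])
  have hpowk : ∀ z : ℂˣ, z ^ p = 1 → z ^ k = z := by
    intro z hz
    have h1 : k ≡ 1 [MOD orderOf z] := Nat.ModEq.of_dvd (orderOf_dvd_of_pow_eq_one hz) hkp
    have h2 := (pow_eq_pow_iff_modEq).mpr h1
    rwa [pow_one] at h2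
  have hmem : ∀ (θ : {θ : Cfsg.IrrCharacter ↥N // θ ∈ Cfsg.principalBlock M ↥N ∧
        ¬ p ∣ Cfsg.charDegree (θ : ↥N → ℂ) ∧
        (∀ x ∈ (P : Subgroup G), ∀ n : ↥N,
          (θ : ↥N → ℂ) ⟨x * n * x⁻¹, hN.conj_mem n n.2 x⟩ = (θ : ↥N → ℂ) n) ∧
        ∀ n : ↥N, (θ : ↥N → ℂ) (n ^ k) = (θ : ↥N → ℂ) n})
      (f : {f : (G ⧸ N) →* ℂˣ // ∀ q, f q ^ p = 1}),
      twistIrr N f.1 (ext θ) ∈ Cfsg.principalBlock M G ∧
        ¬ p ∣ Cfsg.charDegree (twistIrr N f.1 (ext θ) : G → ℂ) ∧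
        ∀ g : G, (twistIrr N f.1 (ext θ) : G → ℂ) (g ^ k) =
          (twistIrr N f.1 (ext θ) : G → ℂ) g := by
    intro θ f
    have hresθ : (fun n : N => (twistIrr N f.1 (ext θ) : G → ℂ) n) = (θ.1 : N → ℂ) := by
      funext n
      rw [twistIrr_res, hextN]
    refine ⟨?_, ?_, ?_⟩
    · apply mem_principalBlock_of_over hM N hreg _ θ.1 θ.2.1
      rw [hresθ, Cfsg.Agent.Lib.Helper3.classInner_irr_self θ.1.2]
      exact one_ne_zero
    · have h2 : Cfsg.charDegree (twistIrr N f.1 (ext θ) : G → ℂ) =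
          Cfsg.charDegree (θ.1 : N → ℂ) := by
        rw [← hresθ]
        rfl
      rw [h2]
      exact θ.2.2.1
    · intro g
      rw [twistIrr_apply, twistIrr_apply, hextk, QuotientGroup.mk_pow, map_pow,
        hpowk _ (f.2 _)]
  suffices h : Nat.card {χ : Cfsg.IrrCharacter G // χ ∈ Cfsg.principalBlock M G ∧
        ¬ p ∣ Cfsg.charDegree (χ : G → ℂ) ∧ ∀ g : G, (χ : G → ℂ) (g ^ k) = (χ : G → ℂ) g} =
      Nat.card ({θ : Cfsg.IrrCharacter ↥N // θ ∈ Cfsg.principalBlock M ↥N ∧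
        ¬ p ∣ Cfsg.charDegree (θ : ↥N → ℂ) ∧
        (∀ x ∈ (P : Subgroup G), ∀ n : ↥N,
          (θ : ↥N → ℂ) ⟨x * n * x⁻¹, hN.conj_mem n n.2 x⟩ = (θ : ↥N → ℂ) n) ∧
        ∀ n : ↥N, (θ : ↥N → ℂ) (n ^ k) = (θ : ↥N → ℂ) n} ×
        {f : (G ⧸ N) →* ℂˣ // ∀ q, f q ^ p = 1}) by
    rw [h, Nat.card_prod, hcardΛ, mul_comm]
  symm
  apply Nat.card_congr
  refine Equiv.ofBijective (fun x => ⟨twistIrr N x.2.1 (ext x.1), hmem x.1 x.2⟩) ⟨?_, ?_⟩
  · rintro ⟨θ, f⟩ ⟨θ', f'⟩ h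
    have h1 : twistIrr N f.1 (ext θ) = twistIrr N f'.1 (ext θ') := congrArg Subtype.val h
    have hθ : θ = θ' := by
      apply Subtype.ext
      apply Subtype.ext
      funext n
      rw [← hextN θ n, ← hextN θ' n, ← twistIrr_res N f.1 (ext θ) n,
        ← twistIrr_res N f'.1 (ext θ') n, h1]
    subst hθ
    have hf : f.1 = f'.1 := twistIrr_injective N (ext θ) (hextirr θ) h1
    exact Prod.ext rfl (Subtype.ext hf)
  · rintro ⟨χ, hχB, hχd, hχk⟩
    have hirr : Cfsg.IsIrrCharacter N (fun n : N => (χ : G → ℂ) n) :=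
      res_irr_of_ppow_index N hidx hhom χ.2 hχd
    have hcon₀ : Cfsg.classInner
        (fun n : N => ((Cfsg.Agent.Lib.Helper77.trivIrr G : Cfsg.IrrCharacter G) : G → ℂ) n)
        ((Cfsg.Agent.Lib.Helper77.trivIrr N : Cfsg.IrrCharacter N) : N → ℂ) ≠ 0 := by
      show Cfsg.classInner ((Cfsg.Agent.Lib.Helper77.trivIrr N : Cfsg.IrrCharacter N) : N → ℂ)
        _ ≠ 0
      rw [Cfsg.Agent.Lib.Helper3.classInner_irr_self (Cfsg.Agent.Lib.Helper77.trivIrr N).2]
      exact one_ne_zero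
    obtain ⟨θ', hθ'B, hθ'c⟩ := Cfsg.Agent.Lib.Helper16.cover_all N hMp
      (Cfsg.Agent.Lib.Helper77.isPBlock_principalBlock M)
      (Cfsg.Agent.Lib.Helper77.isPBlock_principalBlock M)
      (Cfsg.Agent.Lib.Helper77.trivIrr_mem_principalBlock hMp)
      (Cfsg.Agent.Lib.Helper77.trivIrr_mem_principalBlock hMp) hcon₀ hχB
    have hθ'eq : (⟨_, hirr⟩ : Cfsg.IrrCharacter N) = θ' := by
      by_contra hne
      apply hθ'c
      exact Cfsg.Agent.Lib.Helper3.classInner_irr_ne hirr θ'.2 (fun h => hne (Subtype.ext h))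
    obtain ⟨θ, hθval⟩ : ∃ θ : {θ : Cfsg.IrrCharacter ↥N // θ ∈ Cfsg.principalBlock M ↥N ∧
        ¬ p ∣ Cfsg.charDegree (θ : ↥N → ℂ) ∧
        (∀ x ∈ (P : Subgroup G), ∀ n : ↥N,
          (θ : ↥N → ℂ) ⟨x * n * x⁻¹, hN.conj_mem n n.2 x⟩ = (θ : ↥N → ℂ) n) ∧
        ∀ n : ↥N, (θ : ↥N → ℂ) (n ^ k) = (θ : ↥N → ℂ) n},
        ∀ n : N, (θ.1 : N → ℂ) n = (χ : G → ℂ) n := by
      refine ⟨⟨⟨_, hirr⟩, ?_, ?_, ?_, ?_⟩, fun n => rfl⟩
      · rw [hθ'eq]
        exact hθ'B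
      · exact hχd
      · intro x _ n
        exact irr_conj_eq χ.2 (n : G) x
      · intro n
        show (χ : G → ℂ) ((n ^ k : N) : G) = (χ : G → ℂ) n
        rw [SubgroupClass.coe_pow]
        exact hχk n
    obtain ⟨f, hf⟩ := exists_twist N (ext θ) χ (hextirr θ)
      (fun n => by rw [hextN θ n, hθval n])
    have hfk : f ^ k = f := by
      apply twistIrr_injective N (ext θ) (hextirr θ)
      apply Subtype.ext
      funext g
      have h1 := hχk g
      rw [hf, twistIrr_apply, twistIrr_apply, hextk, QuotientGroup.mk_pow, map_pow] at h1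
      rw [twistIrr_apply, twistIrr_apply, MonoidHom.pow_apply]
      exact h1
    have hfp : ∀ q, f q ^ p = 1 := by
      intro q
      obtain ⟨g, rfl⟩ := QuotientGroup.mk_surjective q
      have hg : g ∈ ((N : Set G) * ((P : Subgroup G) : Set G)) := by
        rw [← Subgroup.normal_mul, hsup]
        exact Subgroup.mem_top g
      obtain ⟨n, hn, x, hx, rfl⟩ := Set.mem_mul.mp hg
      have e1 : ((n * x : G) : G ⧸ N) = (x : G ⧸ N) := by
        rw [QuotientGroup.mk_mul, (QuotientGroup.eq_one_iff n).mpr hn, one_mul]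
      rw [e1]
      obtain ⟨j, hj⟩ := (IsPGroup.iff_orderOf.mp P.isPGroup') ⟨x, hx⟩
      rw [Subgroup.orderOf_mk] at hj
      have h2 := hk₁ x ⟨j, hj⟩
      have h3 : f (x : G ⧸ N) ^ k = f (x : G ⧸ N) := by
        have := congrArg (fun φ : (G ⧸ N) →* ℂˣ => φ (x : G ⧸ N)) hfk
        simpa [MonoidHom.pow_apply] using this
      have h4 : f (x : G ⧸ N) ^ k = f (x : G ⧸ N) ^ (1 + p) := by
        rw [← map_pow, ← map_pow, ← QuotientGroup.mk_pow, ← QuotientGroup.mk_pow, h2]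
      rw [h3, pow_add, pow_one] at h4
      exact mul_eq_left.mp h4.symm
    refine ⟨(θ, ⟨f, hfp⟩), ?_⟩
    apply Subtype.ext
    exact hf.symm

end Count

end Cfsg.Agent.Lib.Helper79
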