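import Mathlib
import Cfsg.Prelude.Def_Local

set_option autoImplicit false

namespace Cfsg.Agent.Lib.Helper79

/-- If `p ∣ |M| ↔ q ∣ |M|` for every normal subgroup `M` of the finite group `G` and `p ∣ |G|`,
then `G` is not `p`-solvable (`p ≠ q` primes). -/
theorem not_isPSolvable_of_dvd_iff {G : Type*} [Group G] [Finite G] (p q : ℕ) [Fact p.Prime]
    [Fact q.Prime] (hpq : p ≠ q) (hpG : p ∣ Nat.card G)
    (hiff : ∀ M : Subgroup G, M.Normal → (p ∣ Nat.card M ↔ q ∣ Nat.card M)) :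
    ¬ Cfsg.IsPSolvable p G := by
  have hp : p.Prime := Fact.out
  have hq : q.Prime := Fact.out
  rintro ⟨n, H, h0, hlast, hmono, hnormal, hstep⟩
  have hex : ∃ i : Fin n, ¬ p ∣ Nat.card (H i.castSucc) ∧ p ∣ Nat.card (H i.succ) := by
    by_contra hno
    have hall : ∀ j : Fin (n + 1), ¬ p ∣ Nat.card (H j) := by
      intro j
      induction j using Fin.induction with
      | zero =>
        rw [h0, Subgroup.card_bot]
        exact hp.one_lt.ne' ∘ Nat.dvd_one.mp
      | succ i ih =>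
        intro hdvd
        exact hno ⟨i, ih, hdvd⟩
    apply hall (Fin.last n)
    rw [hlast, Subgroup.card_top]
    exact hpG
  obtain ⟨i, hi1, hi2⟩ := hex
  have hle : H i.castSucc ≤ H i.succ := hmono (Fin.castSucc_le_succ i)
  have hmul : Nat.card (H i.castSucc) * (H i.castSucc).relIndex (H i.succ) =
      Nat.card (H i.succ) := by
    have := Subgroup.relIndex_mul_relIndex (⊥ : Subgroup G) (H i.castSucc) (H i.succ) bot_le hle
    rw [Subgroup.relIndex_bot_left, Subgroup.relIndex_bot_left] at this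
    exact this
  have hq1 : ¬ q ∣ Nat.card (H i.castSucc) := fun h => hi1 ((hiff _ (hnormal _)).mpr h)
  have hq2 : q ∣ Nat.card (H i.succ) := (hiff _ (hnormal _)).mp hi2
  rcases hstep i with ⟨m, hm⟩ | hcop
  · rw [hm] at hmul
    rw [← hmul] at hq2
    rcases (Nat.Prime.dvd_mul hq).mp hq2 with h | h
    · exact hq1 h
    · have := (Nat.prime_dvd_prime_iff_eq hq hp).mp (hq.dvd_of_dvd_pow h)
      exact hpq this.symm
  · rw [← hmul] at hi2
    rcases (Nat.Prime.dvd_mul hp).mp hi2 with h | h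
    · exact hi1 h
    · have h1 : p ∣ Nat.gcd ((H i.castSucc).relIndex (H i.succ)) p := Nat.dvd_gcd h dvd_rfl
      rw [Nat.Coprime] at hcop
      rw [hcop] at h1
      exact hp.one_lt.ne' (Nat.dvd_one.mp h1)

/-- If every nontrivial `q`-element has two conjugates whose quotient is a nontrivial
`p`-element, then `q ∣ |M|` implies `p ∣ |M|` for normal subgroups `M`. -/
theorem dvd_card_normal_of_conj_quotient {G : Type*} [Group G] [Finite G] (p q : ℕ)
    [Fact p.Prime] [Fact q.Prime]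
    (h : ∀ z : G, z ≠ 1 → (∃ k : ℕ, orderOf z = q ^ k) →
      ∃ g h : G, IsConj z g ∧ IsConj z h ∧ g * h⁻¹ ≠ 1 ∧ ∃ k : ℕ, orderOf (g * h⁻¹) = p ^ k)
    (M : Subgroup G) (hM : M.Normal) (hqM : q ∣ Nat.card M) : p ∣ Nat.card M := by
  have hp : p.Prime := Fact.out
  have hq : q.Prime := Fact.out
  obtain ⟨z, hz⟩ := exists_prime_orderOf_dvd_card' (G := M) q hqM
  have hz' : orderOf (z : G) = q := by rw [Subgroup.orderOf_coe]; exact hz
  have hz1 : (z : G) ≠ 1 := by
    intro h1
    rw [h1, orderOf_one] at hz'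
    exact hq.one_lt.ne hz'
  obtain ⟨g, h', hg, hh, hne, k, hk⟩ := h (z : G) hz1 ⟨1, by rw [hz', pow_one]⟩
  have hconjmem : ∀ y : G, IsConj (z : G) y → y ∈ M := by
    intro y hy
    obtain ⟨c, hc⟩ := isConj_iff.mp hy
    rw [← hc]
    exact hM.conj_mem _ z.2 c
  have hmem : g * h'⁻¹ ∈ M := M.mul_mem (hconjmem g hg) (M.inv_mem (hconjmem h' hh))
  have hk0 : k ≠ 0 := by
    intro h0
    rw [h0, pow_zero] at hk
    exact hne (orderOf_eq_one_iff.mp hk)
  have hord : orderOf (⟨g * h'⁻¹, hmem⟩ : M) = p ^ k := by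
    rw [Subgroup.orderOf_mk]; exact hk
  have hdvd := orderOf_dvd_natCard (⟨g * h'⁻¹, hmem⟩ : M)
  rw [hord] at hdvd
  exact (dvd_pow_self p hk0).trans hdvd

/-- The centralizer condition in S4742/S4743 is symmetric in `p` and `q`. -/
theorem centralizer_condition_symm {G : Type*} [Group G] [Finite G] (p q : ℕ)
    [Fact p.Prime] [Fact q.Prime]
    (hC : ∀ g : G, g ≠ 1 → (∃ k : ℕ, orderOf g = p ^ k) →
      ¬ q ∣ Nat.card (Subgroup.centralizer ({g} : Set G))) :
    ∀ z : G, z ≠ 1 → (∃ k : ℕ, orderOf z = q ^ k) →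
      ¬ p ∣ Nat.card (Subgroup.centralizer ({z} : Set G)) := by
  have hp : p.Prime := Fact.out
  intro z hz1 ⟨kz, hkz⟩ hdvd
  obtain ⟨u, hu⟩ := exists_prime_orderOf_dvd_card'
    (G := Subgroup.centralizer ({z} : Set G)) p hdvd
  have hu' : orderOf (u : G) = p := by rw [Subgroup.orderOf_coe]; exact hu
  have hu1 : (u : G) ≠ 1 := by
    intro h1
    rw [h1, orderOf_one] at hu'
    exact hp.one_lt.ne hu'
  apply hC (u : G) hu1 ⟨1, by rw [hu', pow_one]⟩
  have hzmem : z ∈ Subgroup.centralizer ({(u : G)} : Set G) := by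
    rw [Subgroup.mem_centralizer_iff]
    intro y hy
    rw [Set.mem_singleton_iff] at hy
    subst hy
    have := (Subgroup.mem_centralizer_iff.mp u.2) z (Set.mem_singleton z)
    exact this.symm
  have hord : orderOf (⟨z, hzmem⟩ : Subgroup.centralizer ({(u : G)} : Set G)) = q ^ kz := by
    rw [Subgroup.orderOf_mk]; exact hkz
  have hkz0 : kz ≠ 0 := by
    intro h0
    rw [h0, pow_zero] at hkz
    exact hz1 (orderOf_eq_one_iff.mp hkz)
  have hdvd' := orderOf_dvd_natCard (⟨z, hzmem⟩ : Subgroup.centralizer ({(u : G)} : Set G))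
  rw [hord] at hdvd'
  exact (dvd_pow_self q hkz0).trans hdvd'

end Cfsg.Agent.Lib.Helper79
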