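import Mathlib
import Cfsg.Prelude.Def_Blocks
import Cfsg.Prelude.Def_Local
import Cfsg.Agent.S0915
import Cfsg.Agent.Lib.Helper79.QuotBlock
import Cfsg.Agent.Lib.Helper63.HallHigman
import Cfsg.Agent.Lib.Helper69.PSolvable
import Cfsg.Agent.Lib.Helper75.SelfCent2

/-!
# The principal block of a `p`-solvable group

The principal `p`-block of a `p`-solvable group consists of the irreducible characters with
`O_{p'}(G)` in their kernel (Fong).
-/

set_option autoImplicit false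

namespace Cfsg.Agent.Lib.Helper79

open Cfsg Cfsg.Agent.Lib.Helper16

/-- **Fong**: the principal block of a `p`-solvable group. -/
theorem mem_principalBlock_iff_of_isPSolvable {G : Type*} [Group G] [Finite G] (p : ℕ)
    [Fact p.Prime] (M : Ideal Cfsg.AlgInt) (hM : Cfsg.IsPModular p M)
    (hsolv : Cfsg.IsPSolvable p G) (χ : Cfsg.IrrCharacter G) :
    χ ∈ Cfsg.principalBlock M G ↔
      ∀ n ∈ Cfsg.pPrimeCore p G, (χ : G → ℂ) n = (χ : G → ℂ) 1 := by
  classical
  let _ : Fintype G := Fintype.ofFinite G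
  have hp : p.Prime := Fact.out
  have hMp := isPrime_of_isPModular hM
  have hNn : (Cfsg.pPrimeCore p G).Normal := Cfsg.Agent.Lib.Helper75.pPrimeCore_normal' p G
  have hpN : ¬ p ∣ Nat.card (Cfsg.pPrimeCore p G) :=
    Cfsg.Agent.Lib.Helper75.pPrimeCore_not_dvd p hp G
  constructor
  · intro h
    have h' : Cfsg.SameBlock M
        ((Cfsg.Agent.Lib.Helper77.trivIrr G : Cfsg.IrrCharacter G) : G → ℂ) (χ : G → ℂ) := h
    exact ker_of_sameBlock_of_coprime (Cfsg.pPrimeCore p G) hM hpN h' (fun n _ => rfl)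
  · intro h
    obtain ⟨ψ', hψ', hψψ'⟩ :=
      Cfsg.Agent.Lib.Helper80.exists_isIrrCharacter_deflate (Cfsg.pPrimeCore p G) χ.2 h
    have hsolv' : Cfsg.IsPSolvable p (G ⧸ Cfsg.pPrimeCore p G) :=
      Cfsg.Agent.Lib.Helper69.isPSolvable_of_surj p (QuotientGroup.mk' _)
        (QuotientGroup.mk'_surjective _) hsolv
    have hcore' := Cfsg.Agent.Lib.Helper63.pPrimeCore_quotient_eq_bot p G
    have h1 := Cfsg.Agent.S0915.result p M hM hsolv' hcore'
      (Cfsg.Agent.Lib.Helper77.trivIrr (G ⧸ Cfsg.pPrimeCore p G)) ⟨ψ', hψ'⟩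
    have h2 := sameBlock_inflate (Cfsg.pPrimeCore p G) hMp h1
    have e : (ψ' ∘ QuotientGroup.mk : G → ℂ) = (χ : G → ℂ) := funext hψψ'
    show Cfsg.SameBlock M (fun _ : G => (1 : ℂ)) (χ : G → ℂ)
    rw [← e]
    exact h2

end Cfsg.Agent.Lib.Helper79
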