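import Mathlib
import Cfsg.Prelude.Def_Blocks
import Cfsg.Prelude.Def_BlockRank
import Cfsg.Agent.Lib.Helper79.QuotBlock
import Cfsg.Agent.Lib.Helper79.CentProd2
import Cfsg.Agent.Lib.Helper78.ThirdMain
import Cfsg.Agent.Lib.Helper3.CharValues

/-!
# Blocks and quotients by a normal `p`-subgroup `Q` with `G = Q C_G(Q)`

The blocks of `G ⧸ Q` are the traces of the blocks of `G`, and the `p`-regular parts of the
members of a block of `G` are spanned by those of the members having `Q` in their kernel.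
-/

set_option autoImplicit false
set_option linter.unusedSectionVars false

namespace Cfsg.Agent.Lib.Helper79

open Cfsg Cfsg.Agent.Lib.Helper16
open scoped ComplexConjugate

section

variable {G : Type*} [Group G] [Fintype G] (Q : Subgroup G) [Q.Normal] {M : Ideal Cfsg.AlgInt}
  {p : ℕ} [Fact p.Prime]

/-- every `p`-regular element of a quotient is the image of a `p`-regular element -/
theorem exists_pRegular_lift (q : G ⧸ Q) (hq : ¬ p ∣ orderOf q) :
    ∃ x : G, ¬ p ∣ orderOf x ∧ (x : G ⧸ Q) = q := by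
  have hp : p.Prime := Fact.out
  obtain ⟨g, rfl⟩ := QuotientGroup.mk_surjective q
  have ho : orderOf g ≠ 0 := (orderOf_pos g).ne'
  obtain ⟨a, m, hm, hom⟩ := Nat.exists_eq_pow_mul_and_not_dvd ho p hp.ne_one
  have hcop : Nat.Coprime (p ^ a) (orderOf (g : G ⧸ Q)) :=
    Nat.Coprime.pow_left a ((Nat.Prime.coprime_iff_not_dvd hp).mpr hq)
  obtain ⟨u, hu⟩ := exists_pow_eq_self_of_coprime hcop
  refine ⟨(g ^ (p ^ a)) ^ u, ?_, ?_⟩
  · have h1 : orderOf (g ^ (p ^ a)) ∣ m := by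
      apply orderOf_dvd_of_pow_eq_one
      rw [← pow_mul, ← hom]
      exact pow_orderOf_eq_one g
    intro h
    exact hm (dvd_trans (dvd_trans h (orderOf_pow_dvd u)) h1)
  · rw [QuotientGroup.mk_pow, QuotientGroup.mk_pow]
    exact hu

/-- a coset of `Q` contains at most one `p`-regular element when `G = Q C_G(Q)` -/
theorem eq_of_pRegular_of_mk_eq (hQ : IsPGroup p Q)
    (hsup : Q ⊔ Subgroup.centralizer (Q : Set G) = ⊤) {x g : G} (hx : ¬ p ∣ orderOf x)
    (hg : ¬ p ∣ orderOf g) (h : (g : G ⧸ Q) = (x : G ⧸ Q)) : g = x := by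
  have hp : p.Prime := Fact.out
  have hxC := mem_centralizer_of_pRegular hp Q hQ hsup hx
  have hq : g * x⁻¹ ∈ Q := by
    have h1 := QuotientGroup.eq.mp h
    have h2 := Subgroup.Normal.conj_mem ‹Q.Normal› _ (Q.inv_mem h1) g
    have h3 : g * (g⁻¹ * x)⁻¹ * g⁻¹ = g * x⁻¹ := by group
    rwa [h3] at h2
  by_contra hne
  have hq1 : (⟨g * x⁻¹, hq⟩ : Q) ≠ 1 := by
    intro h1
    apply hne
    have h2 := congrArg Subtype.val h1
    exact mul_inv_eq_one.mp h2
  have hcomm : Commute (g * x⁻¹) x := (Subgroup.mem_centralizer_iff.mp hxC) _ hq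
  have h4 := dvd_orderOf_mul_of_pgroup Q hQ ⟨g * x⁻¹, hq⟩ hq1 x hx hcomm
  have h5 : g * x⁻¹ * x = g := by group
  rw [h5] at h4
  exact hg h4

/-- class sizes of `p`-regular elements are unchanged in the quotient -/
theorem index_centralizer_quot_eq (hQ : IsPGroup p Q)
    (hsup : Q ⊔ Subgroup.centralizer (Q : Set G) = ⊤) {x : G} (hx : ¬ p ∣ orderOf x) :
    (Subgroup.centralizer ({(x : G ⧸ Q)} : Set (G ⧸ Q))).index =
      (Subgroup.centralizer ({x} : Set G)).index := by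
  rw [← Subgroup.index_comap_of_surjective
    (Subgroup.centralizer ({(x : G ⧸ Q)} : Set (G ⧸ Q))) (QuotientGroup.mk'_surjective Q)]
  congr 1
  ext g
  rw [Subgroup.mem_comap, Subgroup.mem_centralizer_iff, Subgroup.mem_centralizer_iff]
  constructor
  · intro h y hy
    rw [Set.mem_singleton_iff] at hy
    subst hy
    have h1 : (y : G ⧸ Q) * (g : G ⧸ Q) = (g : G ⧸ Q) * (y : G ⧸ Q) := h (y : G ⧸ Q) rfl
    have h2 : ((g * y * g⁻¹ : G) : G ⧸ Q) = (y : G ⧸ Q) := by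
      rw [QuotientGroup.mk_mul, QuotientGroup.mk_mul, QuotientGroup.mk_inv, ← h1]
      group
    have h3 : ¬ p ∣ orderOf (g * y * g⁻¹) := by
      have : orderOf (g * y * g⁻¹) = orderOf y := (MulAut.conj g).orderOf_eq y
      rwa [this]
    have h4 := eq_of_pRegular_of_mk_eq Q hQ hsup hx h3 h2
    calc y * g = (g * y * g⁻¹) * g := by rw [h4]
      _ = g * y := by group
  · intro h y hy
    rw [Set.mem_singleton_iff] at hy
    subst hy
    have h1 := h x rfl
    show (x : G ⧸ Q) * (g : G ⧸ Q) = (g : G ⧸ Q) * (x : G ⧸ Q)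
    rw [← QuotientGroup.mk_mul, ← QuotientGroup.mk_mul, h1]

/-- for `G = Q C_G(Q)`: irreducible characters of `G ⧸ Q` whose inflations lie in the same
block of `G` lie in the same block of `G ⧸ Q` -/
theorem sameBlock_deflate_of_centralizer (hM : Cfsg.IsPModular p M) (hQ : IsPGroup p Q)
    (hsup : Q ⊔ Subgroup.centralizer (Q : Set G) = ⊤) (χ ψ : Cfsg.IrrCharacter (G ⧸ Q))
    (h : Cfsg.SameBlock M ((χ : G ⧸ Q → ℂ) ∘ QuotientGroup.mk)
      ((ψ : G ⧸ Q → ℂ) ∘ QuotientGroup.mk)) :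
    Cfsg.SameBlock M (χ : G ⧸ Q → ℂ) (ψ : G ⧸ Q → ℂ) := by
  classical
  let _ : Fintype (G ⧸ Q) := Fintype.ofFinite _
  apply sameBlock_of_pRegular hM
  intro q hq
  obtain ⟨x, hx, rfl⟩ := exists_pRegular_lift Q q hq
  have e : Cfsg.centralChar (χ : G ⧸ Q → ℂ) (x : G ⧸ Q) -
      Cfsg.centralChar (ψ : G ⧸ Q → ℂ) (x : G ⧸ Q) =
      Cfsg.centralChar ((χ : G ⧸ Q → ℂ) ∘ QuotientGroup.mk) x -
        Cfsg.centralChar ((ψ : G ⧸ Q → ℂ) ∘ QuotientGroup.mk) x := by
    unfold Cfsg.centralChar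
    rw [index_centralizer_quot_eq Q hQ hsup hx]
    rfl
  rw [e]
  exact h x


open Classical in
/-- the push-forward to `G ⧸ Q` of the `p`-regular part of a function on `G` -/
noncomputable def pushReg (p : ℕ) (θ : G → ℂ) : G ⧸ Q → ℂ :=
  fun c => ∑ g : G, if (g : G ⧸ Q) = c then (if p ∣ orderOf g then 0 else θ g) else 0

theorem pushReg_classFunction (θ : G → ℂ) (hθ : Cfsg.IsClassFunction G θ) :
    Cfsg.IsClassFunction (G ⧸ Q) (pushReg Q p θ) := by
  classical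
  intro c h
  obtain ⟨a, rfl⟩ := QuotientGroup.mk_surjective h
  unfold pushReg
  apply Fintype.sum_equiv (MulAut.conj a⁻¹).toEquiv
  intro g
  have h1 : ((MulAut.conj a⁻¹).toEquiv g : G) = a⁻¹ * g * a := by
    simp
  rw [h1]
  have h2 : orderOf (a⁻¹ * g * a) = orderOf g := by
    have := (MulAut.conj a⁻¹).orderOf_eq g
    simpa [MulAut.conj_apply] using this
  have h3 : θ (a⁻¹ * g * a) = θ g := by
    have := hθ g a⁻¹
    simpa using this
  have h4 : ((g : G ⧸ Q) = (a : G ⧸ Q) * c * (a : G ⧸ Q)⁻¹) ↔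
      (((a⁻¹ * g * a : G) : G ⧸ Q) = c) := by
    rw [QuotientGroup.mk_mul, QuotientGroup.mk_mul, QuotientGroup.mk_inv]
    constructor
    · intro h
      rw [h]
      group
    · intro h
      rw [← h]
      group
  rw [h2, h3]
  by_cases h5 : (g : G ⧸ Q) = (a : G ⧸ Q) * c * (a : G ⧸ Q)⁻¹
  · rw [if_pos h5, if_pos (h4.mp h5)]
  · rw [if_neg h5, if_neg (fun h => h5 (h4.mpr h))]

theorem pushReg_mk (hQ : IsPGroup p Q) (hsup : Q ⊔ Subgroup.centralizer (Q : Set G) = ⊤)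
    (θ : G → ℂ) {x : G} (hx : ¬ p ∣ orderOf x) : pushReg Q p θ (x : G ⧸ Q) = θ x := by
  classical
  unfold pushReg
  rw [Finset.sum_eq_single x]
  · rw [if_pos rfl, if_neg hx]
  · intro g _ hne
    by_cases h1 : (g : G ⧸ Q) = (x : G ⧸ Q)
    · rw [if_pos h1]
      by_cases h2 : p ∣ orderOf g
      · rw [if_pos h2]
      · exact absurd (eq_of_pRegular_of_mk_eq Q hQ hsup hx h2 h1) hne
    · rw [if_neg h1]
  · intro h
    exact absurd (Finset.mem_univ _) h

theorem classInner_pushReg [Fintype (G ⧸ Q)] (θ : G → ℂ) (χ : G ⧸ Q → ℂ) :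
    Cfsg.classInner (pushReg Q p θ) χ = (Nat.card (G ⧸ Q) : ℂ)⁻¹ *
      ∑ g : G, (if p ∣ orderOf g then 0 else θ g) * conj (χ (g : G ⧸ Q)) := by
  classical
  unfold Cfsg.classInner pushReg
  congr 1
  simp_rw [Finset.sum_mul]
  rw [Finset.sum_comm]
  refine Finset.sum_congr rfl (fun g _ => ?_)
  rw [Finset.sum_eq_single (g : G ⧸ Q)]
  · rw [if_pos rfl]
  · intro c _ hne
    rw [if_neg (Ne.symm hne), zero_mul]
  · intro h
    exact absurd (Finset.mem_univ _) h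

/-- for `G = Q C_G(Q)` and `θ` in a block `B` of `G`: on `p`-regular elements `θ` is a linear
combination of characters of `G ⧸ Q` whose inflations lie in `B` -/
theorem pRegular_expansion_quot (hM : Cfsg.IsPModular p M) (hQ : IsPGroup p Q)
    (hsup : Q ⊔ Subgroup.centralizer (Q : Set G) = ⊤)
    (B : Set (Cfsg.IrrCharacter G)) (hB : Cfsg.IsPBlock M B) (θ : Cfsg.IrrCharacter G)
    (hθ : θ ∈ B) [Fintype (Cfsg.IrrCharacter (G ⧸ Q))] :
    ∃ c : Cfsg.IrrCharacter (G ⧸ Q) → ℂ,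
      (∀ χ : Cfsg.IrrCharacter (G ⧸ Q),
        (Cfsg.Agent.Lib.Helper80.inflateIrr Q χ : Cfsg.IrrCharacter G) ∉ B → c χ = 0) ∧
      ∀ x : G, ¬ p ∣ orderOf x →
        (θ : G → ℂ) x = ∑ χ : Cfsg.IrrCharacter (G ⧸ Q), c χ * (χ : G ⧸ Q → ℂ) (x : G ⧸ Q) := by
  classical
  let _ : Fintype (G ⧸ Q) := Fintype.ofFinite _
  have hθcf : Cfsg.IsClassFunction G (θ : G → ℂ) := fun g h => irr_conj_eq θ.2 g h
  refine ⟨fun χ => Cfsg.classInner (pushReg Q p (θ : G → ℂ)) (χ : G ⧸ Q → ℂ), ?_, ?_⟩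
  · intro χ hχ
    show Cfsg.classInner (pushReg Q p (θ : G → ℂ)) (χ : G ⧸ Q → ℂ) = 0
    rw [classInner_pushReg]
    have h1 := Cfsg.Agent.Lib.Helper78.weak_block_orth hM B hB θ hθ
      (Cfsg.Agent.Lib.Helper80.inflateIrr Q χ : Cfsg.IrrCharacter G) hχ
    have h2 : ∀ g : G, (if p ∣ orderOf g then 0 else (θ : G → ℂ) g) * conj ((χ : G ⧸ Q → ℂ) (g : G ⧸ Q)) =
        (if p ∣ orderOf g then (0 : ℂ) else (θ : G → ℂ) g) *
          ((Cfsg.Agent.Lib.Helper80.inflateIrr Q χ : Cfsg.IrrCharacter G) : G → ℂ) g⁻¹ := by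
      intro g
      rw [Cfsg.Agent.Lib.Helper80.inflateIrr_apply, QuotientGroup.mk_inv,
        Cfsg.Agent.Lib.Helper3.isCharacter_inv (Cfsg.Agent.Lib.Helper3.isCharacter_of_irr χ.2)]
    rw [Finset.sum_congr rfl (fun g _ => h2 g), h1, mul_zero]
  · intro x hx
    have h1 := Cfsg.Agent.Lib.Helper3.classFunction_expansion'
      (pushReg_classFunction Q (θ : G → ℂ) hθcf (p := p))
    have h2 := congrFun h1 (x : G ⧸ Q)
    rw [pushReg_mk Q hQ hsup _ hx] at h2
    rw [h2, Finset.sum_apply]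
    refine Finset.sum_congr rfl (fun χ _ => ?_)
    rw [Pi.smul_apply, smul_eq_mul]

end

end Cfsg.Agent.Lib.Helper79
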