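import Mathlib
import Cfsg.Prelude.Def_Blocks
import Cfsg.Agent.Lib.Helper79.RealBlock
import Cfsg.Agent.Lib.Helper76.BrauerFeit

/-!
# Real characters of odd degree and the principal 2-block; the bound `k(B) ≤ p ^ (2 d)`
-/

set_option autoImplicit false

namespace Cfsg.Agent.Lib.Helper79

open Cfsg Cfsg.Agent.Lib.Helper16
open scoped ComplexConjugate

section RealOdd

variable {G : Type*} [Group G] [Fintype G] {M : Ideal Cfsg.AlgInt}

/-- The central character of the complex conjugate is the central character at the inverse. -/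
theorem centralChar_conj (φ : Cfsg.IrrCharacter G) (g : G) :
    Cfsg.centralChar (fun g => conj ((φ : G → ℂ) g)) g = Cfsg.centralChar (φ : G → ℂ) g⁻¹ := by
  unfold Cfsg.centralChar
  rw [centralizer_inv_eq]
  simp only
  rw [← Cfsg.Agent.Lib.Helper81.irr_inv φ g, ← Cfsg.Agent.Lib.Helper81.irr_inv φ 1, inv_one]

/-- Complex conjugation preserves the block relation. -/
theorem sameBlock_conj {χ ψ : Cfsg.IrrCharacter G}
    (h : Cfsg.SameBlock M (χ : G → ℂ) (ψ : G → ℂ)) :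
    Cfsg.SameBlock M (fun g => conj ((χ : G → ℂ) g)) (fun g => conj ((ψ : G → ℂ) g)) := by
  intro g
  rw [centralChar_conj χ, centralChar_conj ψ]
  exact h g⁻¹

/-- The block of a real-valued irreducible character is closed under complex conjugation. -/
theorem conj_block_eq_of_real (χ : Cfsg.IrrCharacter G)
    (hreal : ∀ g, conj ((χ : G → ℂ) g) = (χ : G → ℂ) g) :
    {ψ : Cfsg.IrrCharacter G | ∃ χ' ∈ Cfsg.blockOf M (χ : G → ℂ), (ψ : G → ℂ) =
      fun g => (starRingEnd ℂ) ((χ' : G → ℂ) g)} = Cfsg.blockOf M (χ : G → ℂ) := by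
  have hχc : (fun g => conj ((χ : G → ℂ) g)) = (χ : G → ℂ) := funext hreal
  ext ψ
  constructor
  · rintro ⟨χ', hχ', hψ⟩
    have h1 := sameBlock_conj (M := M) (χ := χ) (ψ := χ') hχ'
    rw [hχc, ← hψ] at h1
    exact h1
  · intro hψ
    refine ⟨⟨fun g => conj ((ψ : G → ℂ) g), Cfsg.Agent.Lib.Helper74.isIrrCharacter_conj ψ.2⟩,
      ?_, ?_⟩
    · have h1 := sameBlock_conj (M := M) (χ := χ) (ψ := ψ) hψ
      rw [hχc] at h1
      exact h1
    · funext g
      simp

/-- **Real-valued irreducible characters of odd degree lie in the principal 2-block.** -/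
theorem real_odd_mem_principalBlock [DecidableEq G] (hM : Cfsg.IsPModular 2 M)
    (χ : Cfsg.IrrCharacter G) (hreal : ∀ g : G, ((χ : G → ℂ) g).im = 0)
    (hodd : Odd (Cfsg.charDegree (χ : G → ℂ))) : χ ∈ Cfsg.principalBlock M G := by
  have : Fact (Nat.Prime 2) := ⟨Nat.prime_two⟩
  have hMp := isPrime_of_isPModular hM
  have hreal' : ∀ g, conj ((χ : G → ℂ) g) = (χ : G → ℂ) g :=
    fun g => Complex.conj_eq_iff_im.mpr (hreal g)
  have hB : Cfsg.IsPBlock M (Cfsg.blockOf M (χ : G → ℂ)) := ⟨χ, rfl⟩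
  have hχB : χ ∈ Cfsg.blockOf M (χ : G → ℂ) := mem_blockOf_self hMp χ
  obtain ⟨D, hD⟩ := Cfsg.Agent.Lib.Helper77.exists_isDefectGroup 2 hMp _ hB
  have hcard := Cfsg.Agent.Lib.Helper77.card_isDefectGroup hM _ hB D hD
  have hdef : Cfsg.blockDefect 2 (Cfsg.blockOf M (χ : G → ℂ)) =
      (Nat.card G).factorization 2 := by
    unfold Cfsg.blockDefect
    have hinf : sInf ((fun ψ : Cfsg.IrrCharacter G =>
        (Cfsg.charDegree (ψ : G → ℂ)).factorization 2) '' Cfsg.blockOf M (χ : G → ℂ)) = 0 := by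
      rw [Nat.sInf_eq_zero]
      left
      refine ⟨χ, hχB, ?_⟩
      show (Cfsg.charDegree (χ : G → ℂ)).factorization 2 = 0
      apply Nat.factorization_eq_zero_of_not_dvd
      exact fun h => (Nat.not_even_iff_odd.mpr hodd) (even_iff_two_dvd.mpr h)
    rw [hinf, Nat.sub_zero]
  rw [hdef] at hcard
  obtain ⟨P, hP⟩ : ∃ P : Sylow 2 G, (P : Subgroup G) = D := ⟨Sylow.ofCard D hcard, rfl⟩
  have hfull : Cfsg.IsDefectGroup 2 M (Cfsg.blockOf M (χ : G → ℂ)) (P : Subgroup G) := by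
    rw [hP]
    exact hD
  have h := real_full_defect_two_block hM _ hB P hfull (conj_block_eq_of_real χ hreal')
  rw [← h]
  exact hχB

/-- **Brauer**: a `p`-block of defect `d` has at most `p ^ (2 d)` irreducible characters. -/
theorem card_block_le [Fintype (Cfsg.IrrCharacter G)] {p : ℕ} [Fact p.Prime]
    (hM : Cfsg.IsPModular p M) (B : Set (Cfsg.IrrCharacter G)) (hB : Cfsg.IsPBlock M B)
    [DecidablePred (· ∈ B)] :
    (Finset.univ.filter (· ∈ B)).card ≤ p ^ (2 * Cfsg.blockDefect p B) := by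
  obtain ⟨χ₀, m, hχ₀, -, hm, hsum⟩ := Cfsg.Agent.Lib.Helper76.brauer_feit_data hM B hB
  have hp : p.Prime := Fact.out
  have hpd : (0 : ℤ) < (p : ℤ) ^ Cfsg.blockDefect p B := by
    exact_mod_cast pow_pos hp.pos _
  have hm0 : m χ₀ ≠ 0 := (hm χ₀ hχ₀).1
  have hnonneg : 0 ≤ (p : ℤ) ^ Cfsg.blockDefect p B * m χ₀ := by
    rw [← hsum]
    exact Finset.sum_nonneg (fun ξ _ => sq_nonneg (m ξ))
  have hmpos : 0 < m χ₀ := by
    rcases lt_trichotomy (m χ₀) 0 with h | h | h
    · nlinarith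
    · exact absurd h hm0
    · exact h
  have hle1 : m χ₀ ^ 2 ≤ (p : ℤ) ^ Cfsg.blockDefect p B * m χ₀ := by
    rw [← hsum]
    exact Finset.single_le_sum (f := fun ξ => m ξ ^ 2) (fun ξ _ => sq_nonneg (m ξ))
      (Finset.mem_univ χ₀)
  have hle2 : m χ₀ ≤ (p : ℤ) ^ Cfsg.blockDefect p B := by
    have h1 : m χ₀ * m χ₀ ≤ (p : ℤ) ^ Cfsg.blockDefect p B * m χ₀ := by
      rw [← sq]
      exact hle1
    exact le_of_mul_le_mul_right h1 hmpos
  have hcount : ((Finset.univ.filter (· ∈ B)).card : ℤ) ≤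
      ∑ ξ : Cfsg.IrrCharacter G, m ξ ^ 2 := by
    calc ((Finset.univ.filter (· ∈ B)).card : ℤ)
        = ∑ ξ ∈ Finset.univ.filter (· ∈ B), (1 : ℤ) := by simp
      _ ≤ ∑ ξ ∈ Finset.univ.filter (· ∈ B), m ξ ^ 2 := by
          refine Finset.sum_le_sum (fun ξ hξ => ?_)
          have h1 := (hm ξ (Finset.mem_filter.mp hξ).2).1
          have h2 : 0 < m ξ ^ 2 := by positivity
          omega
      _ ≤ ∑ ξ : Cfsg.IrrCharacter G, m ξ ^ 2 :=
          Finset.sum_le_sum_of_subset_of_nonneg (Finset.filter_subset _ _)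
            (fun ξ _ _ => sq_nonneg (m ξ))
  have hfinal : ((Finset.univ.filter (· ∈ B)).card : ℤ) ≤
      ((p ^ (2 * Cfsg.blockDefect p B) : ℕ) : ℤ) := by
    calc ((Finset.univ.filter (· ∈ B)).card : ℤ)
        ≤ (p : ℤ) ^ Cfsg.blockDefect p B * m χ₀ := by rw [← hsum]; exact hcount
      _ ≤ (p : ℤ) ^ Cfsg.blockDefect p B * (p : ℤ) ^ Cfsg.blockDefect p B :=
          mul_le_mul_of_nonneg_left hle2 hpd.le
      _ = ((p ^ (2 * Cfsg.blockDefect p B) : ℕ) : ℤ) := by
          push_cast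
          ring
  exact_mod_cast hfinal

end RealOdd

end Cfsg.Agent.Lib.Helper79
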