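import Mathlib
import Cfsg.Prelude.Def_Blocks
import Cfsg.Agent.Lib.Helper79.RealOdd
import Cfsg.Agent.Lib.Helper78.HeightZero

/-!
# Odd-degree characters in conjugation-stable 2-blocks
-/

set_option autoImplicit false

namespace Cfsg.Agent.Lib.Helper79

open Cfsg Cfsg.Agent.Lib.Helper16

open scoped ComplexConjugate

section RealOdd2

variable {G : Type*} [Group G] [Fintype G] {M : Ideal Cfsg.AlgInt}

/-- The block of an irreducible character lying in the same block as its complex conjugate is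
closed under complex conjugation. -/
theorem conj_block_eq_of_sameBlock (hM : M.IsPrime) (χ : Cfsg.IrrCharacter G)
    (h : Cfsg.SameBlock M (χ : G → ℂ) (fun g => conj ((χ : G → ℂ) g))) :
    {ψ : Cfsg.IrrCharacter G | ∃ χ' ∈ Cfsg.blockOf M (χ : G → ℂ), (ψ : G → ℂ) =
      fun g => (starRingEnd ℂ) ((χ' : G → ℂ) g)} = Cfsg.blockOf M (χ : G → ℂ) := by
  ext ψ
  constructor
  · rintro ⟨χ', hχ', hψ⟩
    have h1 := sameBlock_conj (M := M) (χ := χ) (ψ := χ') hχ'
    show Cfsg.SameBlock M (χ : G → ℂ) (ψ : G → ℂ)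
    rw [hψ]
    exact sameBlock_trans hM h h1
  · intro hψ
    refine ⟨⟨fun g => conj ((ψ : G → ℂ) g), Cfsg.Agent.Lib.Helper74.isIrrCharacter_conj ψ.2⟩,
      ?_, ?_⟩
    · have h1 := sameBlock_conj (M := M) (χ := χ) (ψ := ψ) hψ
      exact sameBlock_trans hM h h1
    · funext g
      simp

/-- An irreducible character of odd degree lying in the same 2-block as its complex conjugate
lies in the principal 2-block. -/
theorem odd_mem_principalBlock_of_sameBlock_conj [DecidableEq G] (hM : Cfsg.IsPModular 2 M)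
    (χ : Cfsg.IrrCharacter G)
    (h : Cfsg.SameBlock M (χ : G → ℂ) (fun g => conj ((χ : G → ℂ) g)))
    (hodd : Odd (Cfsg.charDegree (χ : G → ℂ))) : χ ∈ Cfsg.principalBlock M G := by
  have : Fact (Nat.Prime 2) := ⟨Nat.prime_two⟩
  have hMp := isPrime_of_isPModular hM
  have hB : Cfsg.IsPBlock M (Cfsg.blockOf M (χ : G → ℂ)) := ⟨χ, rfl⟩
  have hχB : χ ∈ Cfsg.blockOf M (χ : G → ℂ) := mem_blockOf_self hMp χ
  obtain ⟨D, hD⟩ := Cfsg.Agent.Lib.Helper77.exists_isDefectGroup 2 hMp _ hB
  have hcard := Cfsg.Agent.Lib.Helper77.card_isDefectGroup hM _ hB D hD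
  have hdef : Cfsg.blockDefect 2 (Cfsg.blockOf M (χ : G → ℂ)) =
      (Nat.card G).factorization 2 := by
    unfold Cfsg.blockDefect
    have hinf : sInf ((fun ψ : Cfsg.IrrCharacter G =>
        (Cfsg.charDegree (ψ : G → ℂ)).factorization 2) '' Cfsg.blockOf M (χ : G → ℂ)) = 0 := by
      rw [Nat.sInf_eq_zero]
      left
      refine ⟨χ, hχB, ?_⟩
      show (Cfsg.charDegree (χ : G → ℂ)).factorization 2 = 0
      apply Nat.factorization_eq_zero_of_not_dvd
      exact fun h => (Nat.not_even_iff_odd.mpr hodd) (even_iff_two_dvd.mpr h)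
    rw [hinf, Nat.sub_zero]
  rw [hdef] at hcard
  obtain ⟨P, hP⟩ : ∃ P : Sylow 2 G, (P : Subgroup G) = D := ⟨Sylow.ofCard D hcard, rfl⟩
  have hfull : Cfsg.IsDefectGroup 2 M (Cfsg.blockOf M (χ : G → ℂ)) (P : Subgroup G) := by
    rw [hP]
    exact hD
  have h' := real_full_defect_two_block hM _ hB P hfull (conj_block_eq_of_sameBlock hMp χ h)
  rw [← h']
  exact hχB

/-- If the complex conjugate of `χ` is `χ` times a function whose values are `2`-power roots of
unity (with value `1` at the identity), then `χ` and its conjugate lie in the same `2`-block. -/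
theorem sameBlock_conj_of_twist (hM : Cfsg.IsPModular 2 M) (χ : Cfsg.IrrCharacter G)
    (δ : G → ℂ) (a : ℕ) (hδ : ∀ g, δ g ^ (2 ^ a) = 1) (hδ1 : δ 1 = 1)
    (hc : ∀ g, conj ((χ : G → ℂ) g) = δ g * (χ : G → ℂ) g) :
    Cfsg.SameBlock M (χ : G → ℂ) (fun g => conj ((χ : G → ℂ) g)) := by
  have hMp := isPrime_of_isPModular hM
  intro g
  have e : Cfsg.centralChar (χ : G → ℂ) g - Cfsg.centralChar (fun g => conj ((χ : G → ℂ) g)) g =
      -((δ g - 1) * Cfsg.centralChar (χ : G → ℂ) g) := by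
    unfold Cfsg.centralChar
    simp only [hc, hδ1, one_mul]
    ring
  rw [e]
  exact memLocalIdeal_neg (memLocalIdeal_mul_right hMp
    (Cfsg.Agent.Lib.Helper78.memLocalIdeal_sub_one_of_pow_pow_eq_one hM a (hδ g))
    (memLocalRing_centralChar hMp χ g))

end RealOdd2

end Cfsg.Agent.Lib.Helper79
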