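import Mathlib
import Cfsg.Prelude.Def_Blocks
import Cfsg.Agent.Lib.Helper16.NormalIdem
import Cfsg.Agent.Lib.Helper16.BlockBasic
import Cfsg.Agent.Lib.Helper77.BlockIdem
import Cfsg.Agent.Lib.Helper77.Degree
import Cfsg.Agent.Lib.Helper77.CharBasic
import Cfsg.Agent.Lib.Helper79.CharSum
import Cfsg.Agent.Lib.Helper79.ClassMult

/-!
# Squared degrees of the characters of a block lying over a character of a normal subgroup

For a block `B` of `G`, a normal subgroup `N` and `θ ∈ Irr(N)`, the sum of the squared degrees of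
the members of `B` lying over `θ` is `|G : N|` times a local integer; in particular it is
divisible by `p` when `p` divides `|G : N|`.
-/

set_option autoImplicit false

namespace Cfsg.Agent.Lib.Helper79

open Cfsg Cfsg.Agent.Lib.Helper16

open scoped ComplexConjugate

section RelSq

variable {G : Type*} [Group G] [Fintype G] {p : ℕ} [Fact p.Prime] {M : Ideal Cfsg.AlgInt}

omit [Fact (Nat.Prime p)] in
/-- The sum of the squared degrees of the members of a block lying over `θ` is divisible by `p`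
when `p` divides the index of the normal subgroup. -/
theorem dvd_sum_sq_over (hM : Cfsg.IsPModular p M) (B : Set (Cfsg.IrrCharacter G))
    (hB : Cfsg.IsPBlock M B) (N : Subgroup G) [N.Normal] [Fintype N] (hpN : p ∣ N.index)
    (θ : Cfsg.IrrCharacter N) (S : Finset (Cfsg.IrrCharacter G))
    (hS : ∀ χ, χ ∈ S ↔ χ ∈ B ∧
      Cfsg.classInner (fun n : N => (χ : G → ℂ) n) (θ : N → ℂ) ≠ 0) :
    p ∣ ∑ χ ∈ S, Cfsg.charDegree (χ : G → ℂ) ^ 2 := by
  classical
  have hfin := Cfsg.Agent.Lib.Helper77.irr_finite G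
  let _ : Fintype (Cfsg.IrrCharacter G) := Fintype.ofFinite _
  have hMp := isPrime_of_isPModular hM
  obtain ⟨Bf, hBf⟩ : ∃ Bf : Finset (Cfsg.IrrCharacter G), ∀ χ, χ ∈ Bf ↔ χ ∈ B :=
    ⟨Finset.univ.filter (· ∈ B), fun χ => by simp⟩
  have hBset : B = (Bf : Set (Cfsg.IrrCharacter G)) := by
    ext χ
    rw [Finset.mem_coe, hBf]
  obtain ⟨O, hO⟩ : ∃ O : Finset (Cfsg.IrrCharacter N), O = orbitIrr (G := G) N θ := ⟨_, rfl⟩
  have hOst : ∀ θ' ∈ O, ∀ g : G, conjIrr N θ' g ∈ O := by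
    rw [hO]
    exact orbitIrr_stable N θ
  obtain ⟨e, he⟩ : ∃ e : G → ℂ, e = normalIdem N O := ⟨_, rfl⟩
  -- the action of `e` on the irreducible characters
  have hχsum : ∀ χ : Cfsg.IrrCharacter G, ∑ x : G, e x * (χ : G → ℂ) x =
      if Cfsg.classInner (fun n : N => (χ : G → ℂ) n) (θ : N → ℂ) ≠ 0 then (χ : G → ℂ) 1
      else 0 := by
    intro χ
    have hχ1 : (χ : G → ℂ) 1 ≠ 0 := irr_one_ne_zero χ.2
    have h1 : ∑ x : G, e x * (χ : G → ℂ) x = (χ : G → ℂ) 1 * omega (χ : G → ℂ) e := by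
      unfold omega
      rw [← Finset.sum_div]
      field_simp
    rw [h1, he]
    split_ifs with hc
    · rw [omega_normalIdem_eq_one N O hOst χ ⟨θ, by rw [hO]; exact self_mem_orbitIrr N θ, hc⟩,
        mul_one]
    · rw [omega_normalIdem_eq_zero N O, mul_zero]
      intro θ' hθ'
      rw [hO] at hθ'
      have hχc : Cfsg.IsClassFunction G (χ : G → ℂ) := fun g x => irr_conj_eq χ.2 g x
      rw [classInner_res_of_mem_orbitIrr N hχc θ hθ']
      exact not_not.mp hc
  -- the block idempotent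
  have hBx : ∀ x : G, ∑ χ ∈ Bf, (χ : G → ℂ) 1 * (χ : G → ℂ) x =
      (Nat.card G : ℂ) * Cfsg.blockCoeff B x⁻¹ := by
    intro x
    unfold Cfsg.blockCoeff
    rw [hBset, finsum_mem_coe_finset]
    have hG : (Nat.card G : ℂ) ≠ 0 := by exact_mod_cast (Nat.card_pos (α := G)).ne'
    rw [← mul_assoc, mul_inv_cancel₀ hG, one_mul]
    refine Finset.sum_congr rfl (fun χ _ => ?_)
    rw [Cfsg.Agent.Lib.Helper3.isCharacter_inv (Cfsg.Agent.Lib.Helper3.isCharacter_of_irr χ.2),
      Complex.conj_conj]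
  -- the sum of squares
  have hsq : ((∑ χ ∈ S, Cfsg.charDegree (χ : G → ℂ) ^ 2 : ℕ) : ℂ) =
      ∑ x : G, e x * ((Nat.card G : ℂ) * Cfsg.blockCoeff B x⁻¹) := by
    have h1 : ∑ x : G, e x * ((Nat.card G : ℂ) * Cfsg.blockCoeff B x⁻¹) =
        ∑ χ ∈ Bf, (χ : G → ℂ) 1 * ∑ x : G, e x * (χ : G → ℂ) x := by
      have h2 : ∀ x : G, e x * ((Nat.card G : ℂ) * Cfsg.blockCoeff B x⁻¹) =
          ∑ χ ∈ Bf, (χ : G → ℂ) 1 * (e x * (χ : G → ℂ) x) := by
        intro x
        rw [← hBx x, Finset.mul_sum]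
        exact Finset.sum_congr rfl (fun χ _ => by ring)
      rw [Finset.sum_congr rfl (fun x _ => h2 x), Finset.sum_comm]
      exact Finset.sum_congr rfl (fun χ _ => (Finset.mul_sum _ _ _).symm)
    rw [h1]
    have h3 : ∀ χ ∈ Bf, (χ : G → ℂ) 1 * ∑ x : G, e x * (χ : G → ℂ) x =
        if χ ∈ S then ((Cfsg.charDegree (χ : G → ℂ) ^ 2 : ℕ) : ℂ) else 0 := by
      intro χ hχ
      rw [hχsum χ]
      obtain ⟨hd, -, -⟩ := irr_charDegree χ.2
      by_cases hc : Cfsg.classInner (fun n : N => (χ : G → ℂ) n) (θ : N → ℂ) ≠ 0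
      · rw [if_pos hc, if_pos ((hS χ).mpr ⟨(hBf χ).mp hχ, hc⟩), hd]
        push_cast
        ring
      · rw [if_neg hc, if_neg (fun h => hc ((hS χ).mp h).2), mul_zero]
    rw [Finset.sum_congr rfl h3, ← Finset.sum_filter, Nat.cast_sum]
    apply Finset.sum_congr _ (fun _ _ => rfl)
    ext χ
    rw [Finset.mem_filter, hBf, hS]
    constructor
    · intro h
      exact ⟨h.1, h⟩
    · intro h
      exact h.2
  -- evaluation on `N`
  obtain ⟨r, hr⟩ : ∃ r : ℂ, r = ∑ n : N, (∑ θ' ∈ O, (θ' : N → ℂ) 1 * conj ((θ' : N → ℂ) n)) *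
      Cfsg.blockCoeff B ((n : G)⁻¹) := ⟨_, rfl⟩
  have hrR : MemLocalRing M r := by
    rw [hr]
    apply memLocalRing_sum hMp
    intro n _
    apply memLocalRing_mul hMp
    · apply memLocalRing_sum hMp
      intro θ' _
      apply memLocalRing_mul hMp (Cfsg.Agent.Lib.Helper77.memLocalRing_irr_apply hMp θ' 1)
      rw [← Cfsg.Agent.Lib.Helper3.isCharacter_inv
        (Cfsg.Agent.Lib.Helper3.isCharacter_of_irr θ'.2)]
      exact Cfsg.Agent.Lib.Helper77.memLocalRing_irr_apply hMp θ' _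
    · exact Cfsg.Agent.Lib.Helper77.memLocalRing_blockCoeff hMp B hB _
  have heval : ∑ x : G, e x * ((Nat.card G : ℂ) * Cfsg.blockCoeff B x⁻¹) =
      (N.index : ℂ) * r := by
    rw [he]
    unfold normalIdem
    rw [Cfsg.Agent.Lib.Helper3.sum_extendByZero_mul, hr, Finset.mul_sum]
    refine Finset.sum_congr rfl (fun n _ => ?_)
    rw [Finset.sum_apply]
    have hN0 : (Nat.card N : ℂ) ≠ 0 := by exact_mod_cast (Nat.card_pos (α := N)).ne'
    have hcard : (Nat.card G : ℂ) = (Nat.card N : ℂ) * (N.index : ℂ) := by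
      rw [← Subgroup.card_mul_index N]
      push_cast
      ring
    have h4 : ∑ θ' ∈ O, idem (θ' : N → ℂ) n =
        (∑ θ' ∈ O, (θ' : N → ℂ) 1 * conj ((θ' : N → ℂ) n)) / (Nat.card N : ℂ) := by
      rw [Finset.sum_div]
      rfl
    rw [h4, hcard]
    field_simp
  rw [heval] at hsq
  have hmem : MemLocalIdeal M (((∑ χ ∈ S, Cfsg.charDegree (χ : G → ℂ) ^ 2 : ℕ) : ℂ)) := by
    rw [hsq]
    exact memLocalIdeal_mul_right hMp ((memLocalIdeal_natCast_iff hM _).mpr hpN) hrR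
  exact (memLocalIdeal_natCast_iff hM _).mp hmem

end RelSq

end Cfsg.Agent.Lib.Helper79
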